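import Mathlib
import Cfsg.Agent.H989.Fx.OmE

/-!
# S5719, orthogonal groups, `q` odd: subgroups without fundamental involutions (helper989)

* `lr` : two Siegel elements of totally singular lines in such a subgroup generate a `p`-group;
* `exists_fix` : all of them fix a nonzero vector (Baer-Suzuki);
* `card_le_sq` : an additive group without nonzero singular vectors has at most `q²` elements (Chevalley-Warning);
* `exists_sing`.
-/

set_option autoImplicit false
set_option maxHeartbeats 400000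
set_option linter.unusedSimpArgs false
set_option linter.unusedVariables false
set_option linter.unusedSectionVars false

namespace Cfsg.Agent.H989.Fx

open QuadraticMap Cfsg.Agent.LieClassical Cfsg.Agent.LieClassical.OrthCore Cfsg.Agent.LieClassical.OrthTrans
  Cfsg.Agent.LieClassical.OrthSimple Cfsg.Agent.AutOrth.SemiSim Cfsg.Agent.AutOrth.Gen
  Cfsg.Agent.H989.Gs.Gen
open Cfsg.Agent.UGT.U2.FOne.Orth (Four tl tl_comb tl_comb' siegel_eq_tl)
open Cfsg.Agent.LieClassical.SLTwoUnipotent (u l coe_u coe_l)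
open Matrix (SpecialLinearGroup)

variable {F V : Type*} [Field F] [AddCommGroup V] [Module F V] {Q : QuadraticForm F V}

theorem ap_S_tl {a b : V} (ha : Q a = 0) (hb : Q b = 0) (hab : polar Q a b = 0) (v : V) :
    ap (S Q a b) v = tl Q a b v := by
  rw [S_ap' ha hab hb]
  rfl

theorem Q_comb {a b : V} (ha : Q a = 0) (hb : Q b = 0) (hab : polar Q a b = 0) (p r : F) :
    Q (p • a + r • b) = 0 := by
  rw [Q_add, QuadraticMap.map_smul, QuadraticMap.map_smul, polar_smul_left, polar_smul_right, ha, hb, hab]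
  simp

theorem polar_comb {a b : V} (ha : Q a = 0) (hb : Q b = 0) (hab : polar Q a b = 0) (p r p' r' : F) :
    polar Q (p • a + r • b) (p' • a + r' • b) = 0 := by
  simp only [polar_add_left, polar_add_right, polar_smul_left, polar_smul_right, polar_self_of_sing ha,
    polar_self_of_sing hb, hab, polar_comm Q b a]
  simp

theorem S_comb {a b : V} (ha : Q a = 0) (hb : Q b = 0) (hab : polar Q a b = 0) (p r p' r' t : F)
    (ht : t * (p * r' - r * p') = 1) :
    S Q (p • a + r • b) (t • (p' • a + r' • b)) = S Q a b := by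
  apply ext_ap
  intro v
  rw [ap_S_tl (Q_comb ha hb hab p r) (by rw [QuadraticMap.map_smul, Q_comb ha hb hab, smul_zero])
    (by rw [polar_smul_right, polar_comb ha hb hab, smul_zero]), ap_S_tl ha hb hab, tl_comb', ht, one_smul]

theorem S_pow {a w : V} (ha : Q a = 0) (haw : polar Q a w = 0) (n : ℕ) :
    S Q a w ^ n = S Q a ((n : F) • w) := by
  induction n with
  | zero => rw [pow_zero, Nat.cast_zero, zero_smul, S_zero]
  | succ n ih =>
    rw [pow_succ, ih, ← S_add ha (by rw [polar_smul_right, haw, smul_zero]) haw, Nat.cast_succ, add_smul, one_smul]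

section

variable {p : ℕ} [Fact p.Prime] [CharP F p]

theorem S_pow_char {a w : V} (ha : Q a = 0) (haw : polar Q a w = 0) : S Q a w ^ p = 1 := by
  rw [S_pow ha haw, CharP.cast_eq_zero, zero_smul, S_zero]

theorem isPGroup_RS {a : V} (ha : Q a = 0) : IsPGroup p (RS Q a ha) := by
  rintro ⟨_, w, hw, rfl⟩
  refine ⟨1, Subtype.ext ?_⟩
  change (sg Q a w ha hw) ^ p ^ 1 = 1
  rw [pow_one, ← S_eq ha hw]
  exact S_pow_char ha hw

theorem isPGroup_zpowers {x : ↥(E Q)} (hx : x ^ p = 1) : IsPGroup p (Subgroup.zpowers x) := by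
  rintro ⟨_, n, rfl⟩
  refine ⟨1, Subtype.ext ?_⟩
  change (x ^ n) ^ p ^ 1 = 1
  rw [pow_one, ← zpow_natCast, ← zpow_mul, mul_comm, zpow_mul, zpow_natCast, hx, one_zpow]

/-- the degenerate case -/
theorem lr_deg {a b : ↥(E Q)} {x y : V} (hx : Q x = 0) (hxy : polar Q x y = 0) (ha : a = S Q x y)
    (hb : b ^ p = 1) (hbx : ap b x = x) : IsPGroup p (Subgroup.closure {a, b} : Subgroup ↥(E Q)) := by
  have h1 : IsPGroup p (RS Q x hx ⊔ Subgroup.zpowers b : Subgroup ↥(E Q)) := by
    apply IsPGroup.to_sup_of_normal_left' (isPGroup_RS hx) (isPGroup_zpowers hb)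
    have hconj : ∀ g : ↥(E Q), ap g x = x → ∀ r ∈ RS Q x hx, g * r * g⁻¹ ∈ RS Q x hx := by
      rintro g hg _ ⟨w, hw, rfl⟩
      rw [← S_eq hx hw, S_conj, hg]
      have h2 : polar Q x (ap g w) = 0 := by
        conv_lhs => rw [← hg]
        rw [polar_ap, hw]
      rw [S_eq hx h2]
      exact sg_mem_RS hx h2
    rw [Subgroup.zpowers_le]
    rw [Subgroup.mem_normalizer_iff]
    intro r
    constructor
    · exact hconj b hbx r
    · intro hr
      have h3 := hconj b⁻¹ (ap_inv_of hbx) _ hr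
      have h4 : b⁻¹ * (b * r * b⁻¹) * b⁻¹⁻¹ = r := by group
      rwa [h4] at h3
  refine h1.to_le ?_
  rw [Subgroup.closure_le]
  rintro z (rfl | rfl)
  · apply Subgroup.mem_sup_left
    rw [ha, S_eq hx hxy]
    exact sg_mem_RS hx hxy
  · exact Subgroup.mem_sup_right (Subgroup.mem_zpowers _)

/-- **(LR)** -/
theorem lr [Finite F] (h2 : (2 : F) ≠ 0) {X : Subgroup ↥(E Q)} (hX : ∀ z ∈ X, ¬ Fund Q z) {x y x' y' : V}
    (hx : Q x = 0) (hy : Q y = 0) (hxy : polar Q x y = 0) (hx' : Q x' = 0) (hy' : Q y' = 0)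
    (hxy' : polar Q x' y' = 0) (hg : S Q x y ∈ X) (hh : S Q x' y' ∈ X) :
    IsPGroup p (Subgroup.closure {S Q x y, S Q x' y'} : Subgroup ↥(E Q)) := by
  set α := polar Q x x' with hα
  set β := polar Q x y' with hβ
  set γ := polar Q y x' with hγ
  set ε := polar Q y y' with hε
  by_cases hδ : α * ε - β * γ = 0
  · -- a common perpendicular vector
    obtain ⟨a, b, hab, h3, h4⟩ : ∃ a b : F, (a ≠ 0 ∨ b ≠ 0) ∧ a * α + b * γ = 0 ∧ a * β + b * ε = 0 := by
      by_cases h5 : α = 0
      · by_cases h6 : β = 0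
        · exact ⟨1, 0, Or.inl one_ne_zero, by rw [h5]; ring, by rw [h6]; ring⟩
        · exact ⟨-ε, β, Or.inr h6, by linear_combination -hδ, by ring⟩
      · exact ⟨-γ, α, Or.inr h5, by ring, by linear_combination hδ⟩
    obtain ⟨c, d, hcd⟩ : ∃ c d : F, a * d - b * c = 1 := by
      by_cases ha : a = 0
      · have hb : b ≠ 0 := by
          rcases hab with h | h
          · exact absurd ha h
          · exact h
        exact ⟨-b⁻¹, 0, by field_simp; ring⟩
      · exact ⟨0, a⁻¹, by field_simp; ring⟩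
    have hS : S Q x y = S Q (a • x + b • y) (c • x + d • y) := by
      have := S_comb hx hy hxy a b c d 1 (by rw [one_mul, hcd])
      rw [one_smul] at this
      exact this.symm
    refine lr_deg (Q_comb hx hy hxy a b) (polar_comb hx hy hxy a b c d) hS (S_pow_char hx' hxy') ?_
    have k1 : polar Q x' (a • x + b • y) = 0 := by
      rw [polar_comm, polar_add_left, polar_smul_left, polar_smul_left]
      exact h3
    have k2 : polar Q y' (a • x + b • y) = 0 := by
      rw [polar_comm, polar_add_left, polar_smul_left, polar_smul_left]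
      exact h4
    exact S_fix hx' hxy' k1 k2
  · -- a fundamental involution
    exfalso
    set δ := α * ε - β * γ with hδdef
    set f₁ := (δ⁻¹ * ε) • x' + (-(δ⁻¹ * γ)) • y' with hf₁
    set e₂ := (-(δ⁻¹ * β)) • x' + (δ⁻¹ * α) • y' with he₂
    have q1 : polar Q x f₁ = 1 := by
      rw [hf₁, polar_add_right, polar_smul_right, polar_smul_right, ← hα, ← hβ]
      simp only [smul_eq_mul]
      field_simp
      rw [hδdef]; ring
    have q2 : polar Q e₂ y = 1 := by
      rw [he₂, polar_add_left, polar_smul_left, polar_smul_left, polar_comm Q x' y, polar_comm Q y' y, ← hγ, ← hε]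
      simp only [smul_eq_mul]
      field_simp
      rw [hδdef]; ring
    have q3 : polar Q x e₂ = 0 := by
      rw [he₂, polar_add_right, polar_smul_right, polar_smul_right, ← hα, ← hβ]
      simp only [smul_eq_mul]
      ring
    have q4 : polar Q f₁ y = 0 := by
      rw [hf₁, polar_add_left, polar_smul_left, polar_smul_left, polar_comm Q x' y, polar_comm Q y' y, ← hγ, ← hε]
      simp only [smul_eq_mul]
      ring
    have hfour : Four Q x f₁ e₂ y :=
      ⟨⟨hx, Q_comb hx' hy' hxy' _ _, q1⟩, ⟨Q_comb hx' hy' hxy' _ _, hy, q2⟩, q3, hxy,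
        polar_comb hx' hy' hxy' _ _ _ _, q4⟩
    have r1 : hfour.rhoE (u (-1)) = S Q x y := by
      apply ext_ap
      intro v
      change hfour.rho (u (-1)) v = _
      rw [hfour.rho_u, ap_S_tl hx hy hxy, neg_neg, one_smul]
    have r2 : hfour.rhoE (l δ) = S Q x' y' := by
      apply ext_ap
      intro v
      change hfour.rho (l δ) v = _
      rw [hfour.rho_l, ap_S_tl hx' hy' hxy', hf₁, he₂, tl_comb']
      have h3 : -δ * (-(δ⁻¹ * β) * -(δ⁻¹ * γ) - δ⁻¹ * α * (δ⁻¹ * ε)) = 1 := by
        field_simp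
        rw [hδdef]; ring
      rw [h3, one_smul]
    obtain ⟨A, hA, hA1⟩ := exists_neg_one h2 (H := X.comap hfour.rhoE) (a := -1) (c := δ)
      (neg_ne_zero.2 one_ne_zero) hδ (by rw [Subgroup.mem_comap, r1]; exact hg)
      (by rw [Subgroup.mem_comap, r2]; exact hh)
    exact hX _ hA (fund_of_four hfour hA1)

omit [Fact p.Prime] [CharP F p] in
theorem finite_E [Finite V] : Finite ↥(E Q) := by
  have : Finite (V ≃ₗ[F] V) := Finite.of_injective (fun e : V ≃ₗ[F] V => (e : V → V)) DFunLike.coe_injective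
  infer_instance

/-- **(Baer-Suzuki)** the Siegel elements of totally singular lines in `X` lie in a `p`-subgroup of `X` -/
theorem exists_R [Finite F] [Finite V] (h2 : (2 : F) ≠ 0) {X : Subgroup ↥(E Q)}
    (hX : ∀ z ∈ X, ¬ Fund Q z) : ∃ R : Subgroup ↥(E Q), R ≤ X ∧ IsPGroup p R ∧
      (∀ g ∈ X, ∀ r ∈ R, g * r * g⁻¹ ∈ R) ∧ ∀ x y : V, Q x = 0 → Q y = 0 → polar Q x y = 0 →
      S Q x y ∈ X → S Q x y ∈ R := by
  have hfinE : Finite ↥(E Q) := finite_E
  let K : Set ↥X := {z | ∃ x y : V, Q x = 0 ∧ Q y = 0 ∧ polar Q x y = 0 ∧ (z : ↥(E Q)) = S Q x y}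
  have hK : ∀ g : ↥X, ∀ z ∈ K, g * z * g⁻¹ ∈ K := by
    rintro g z ⟨x, y, hx, hy, hxy, hz⟩
    refine ⟨ap g.1 x, ap g.1 y, by rw [Q_ap, hx], by rw [Q_ap, hy], by rw [polar_ap, hxy], ?_⟩
    rw [← S_conj, ← hz]
    rfl
  have hpair : ∀ z ∈ K, ∀ z' ∈ K, IsPGroup p (Subgroup.closure {z, z'} : Subgroup ↥X) := by
    rintro z ⟨x, y, hx, hy, hxy, hz⟩ z' ⟨x', y', hx', hy', hxy', hz'⟩
    have h3 := lr (p := p) h2 hX hx hy hxy hx' hy' hxy' (hz ▸ z.2) (hz' ▸ z'.2)
    have h4 : (Subgroup.closure {z, z'} : Subgroup ↥X).map X.subtype =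
        Subgroup.closure {S Q x y, S Q x' y'} := by
      rw [MonoidHom.map_closure, Set.image_pair]
      congr 1
      rw [← hz, ← hz']
      rfl
    rintro ⟨a, ha⟩
    have h5 : X.subtype a ∈ (Subgroup.closure {z, z'} : Subgroup ↥X).map X.subtype := ⟨a, ha, rfl⟩
    rw [h4] at h5
    obtain ⟨n, hn⟩ := h3 ⟨_, h5⟩
    refine ⟨n, Subtype.ext (Subtype.ext ?_)⟩
    have := congrArg Subtype.val hn
    exact this
  have hR := Cfsg.Agent.Involutions.BaerSuzuki.baer_suzuki_set hK hpair
  have hnorm : ∀ (g : ↥X), ∀ r ∈ Subgroup.closure K, g * r * g⁻¹ ∈ Subgroup.closure K := by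
    intro g r hr
    induction hr using Subgroup.closure_induction with
    | mem x hx => exact Subgroup.subset_closure (hK g x hx)
    | one => rw [mul_one, mul_inv_cancel]; exact Subgroup.one_mem _
    | mul x y _ _ hx hy =>
      have : g * (x * y) * g⁻¹ = g * x * g⁻¹ * (g * y * g⁻¹) := by group
      rw [this]
      exact Subgroup.mul_mem _ hx hy
    | inv x _ hx =>
      have : g * x⁻¹ * g⁻¹ = (g * x * g⁻¹)⁻¹ := by group
      rw [this]
      exact Subgroup.inv_mem _ hx
  refine ⟨(Subgroup.closure K).map X.subtype, ?_, hR.map X.subtype, ?_, ?_⟩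
  · rintro _ ⟨r, -, rfl⟩
    exact r.2
  · rintro g hg _ ⟨r, hr, rfl⟩
    exact ⟨_, hnorm ⟨g, hg⟩ r hr, rfl⟩
  · intro x y hx hy hxy hS
    exact ⟨⟨S Q x y, hS⟩, Subgroup.subset_closure ⟨x, y, hx, hy, hxy, rfl⟩, rfl⟩

/-- a `p`-group fixes a nonzero vector -/
theorem exists_fixed_of_isPGroup [Finite V] [Nontrivial V] {R : Subgroup ↥(E Q)} (hR : IsPGroup p R) :
    ∃ c : V, c ≠ 0 ∧ ∀ r ∈ R, ap r c = c := by
  have hfinE : Finite ↥(E Q) := finite_E
  have hact : ∀ (r : ↥R) (v : V), r • v = ap (r : ↥(E Q)) v := fun r v => rfl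
  have hpV : p ∣ Nat.card V := by
    obtain ⟨v, hv⟩ := exists_ne (0 : V)
    have h3 : addOrderOf v = p := by
      apply addOrderOf_eq_prime _ hv
      rw [← Nat.cast_smul_eq_nsmul F, CharP.cast_eq_zero, zero_smul]
    rw [← h3]
    exact addOrderOf_dvd_natCard v
  have h0 : (0 : V) ∈ MulAction.fixedPoints ↥R V := by
    intro r
    rw [hact]
    exact map_zero _
  obtain ⟨c, hc, hc0⟩ := hR.exists_fixed_point_of_prime_dvd_card_of_fixed_point V hpV h0
  exact ⟨c, hc0.symm, fun r hr => hc ⟨r, hr⟩⟩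

/-- the Siegel elements of totally singular lines in `X` fix a common nonzero vector -/
theorem exists_fix [Finite F] [Finite V] [Nontrivial V] (h2 : (2 : F) ≠ 0) {X : Subgroup ↥(E Q)}
    (hX : ∀ z ∈ X, ¬ Fund Q z) : ∃ c : V, c ≠ 0 ∧ ∀ x y : V, Q x = 0 → Q y = 0 → polar Q x y = 0 →
      S Q x y ∈ X → ap (S Q x y) c = c := by
  obtain ⟨p, hp⟩ := CharP.exists F
  cases nonempty_fintype F
  have hpp : Fact p.Prime := ⟨CharP.char_is_prime F p⟩
  obtain ⟨R, -, hR, -, h3⟩ := exists_R (p := p) h2 hX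
  obtain ⟨c, hc0, hc⟩ := exists_fixed_of_isPGroup hR
  exact ⟨c, hc0, fun x y hx hy hxy hS => hc _ (h3 x y hx hy hxy hS)⟩

end

/-- a Siegel element of a totally singular line which is not 1 and fixes `c`: the line is orthogonal to `c` -/
theorem polar_eq_zero_of_fix {x y c : V} (hx : Q x = 0) (hy : Q y = 0) (hxy : polar Q x y = 0)
    (hS : S Q x y ≠ 1) (hc : ap (S Q x y) c = c) : polar Q x c = 0 ∧ polar Q y c = 0 := by
  rw [S_ap' hx hxy hy] at hc
  have h3 : polar Q x c • y = polar Q y c • x := by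
    have h4 : c + (polar Q x c • y - polar Q y c • x) = c := by
      rw [← add_sub_assoc]
      exact hc
    exact sub_eq_zero.1 (add_eq_left.1 h4)
  by_contra hcon
  apply hS
  by_cases h4 : polar Q x c = 0
  · have h5 : polar Q y c ≠ 0 := fun h => hcon ⟨h4, h⟩
    rw [h4, zero_smul] at h3
    have h6 : x = 0 := (smul_eq_zero.1 h3.symm).resolve_left h5
    rw [h6]
    apply ext_ap
    intro v
    rw [ap_one, S_ap' (by rw [QuadraticMap.map_zero]) (by rw [polar_zero_left]) hy, polar_zero_left]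
    simp
  · have h5 : y = ((polar Q x c)⁻¹ * polar Q y c) • x := by
      rw [mul_smul, ← h3, smul_smul, inv_mul_cancel₀ h4, one_smul]
    rw [h5]
    exact S_self_smul _ hx

/-- the proper subspace which contains all totally singular lines of Siegel elements in `X` -/
theorem exists_U [Finite F] [Finite V] [Nontrivial V] (h2 : (2 : F) ≠ 0) (hQ : Nondeg Q) {X : Subgroup ↥(E Q)}
    (hX : ∀ z ∈ X, ¬ Fund Q z) : ∃ U : Submodule F V, U ≠ ⊤ ∧ ∀ x y : V, Q x = 0 → Q y = 0 → polar Q x y = 0 →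
      S Q x y ∈ X → S Q x y ≠ 1 → x ∈ U ∧ y ∈ U := by
  obtain ⟨c, hc0, hc⟩ := exists_fix h2 hX
  refine ⟨LinearMap.ker (polarBilin Q c), ?_, fun x y hx hy hxy hS h1 => ?_⟩
  · intro h3
    apply hc0
    apply hQ
    intro v
    have : v ∈ LinearMap.ker (polarBilin Q c) := by rw [h3]; exact Submodule.mem_top
    exact this
  · obtain ⟨h3, h4⟩ := polar_eq_zero_of_fix hx hy hxy h1 (hc x y hx hy hxy hS)
    constructor
    · change polar Q c x = 0
      rw [polar_comm, h3]
    · change polar Q c y = 0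
      rw [polar_comm, h4]

/-- **(Chevalley-Warning)** -/
theorem card_le_sq_aux (p : ℕ) [Fact p.Prime] [CharP F p] [Finite F] [Finite V] (h2 : (2 : F) ≠ 0)
    (A : AddSubgroup V) (hA : ∀ a ∈ A, Q a = 0 → a = 0) : Nat.card A ≤ Nat.card F ^ 2 := by
  classical
  let _ : Algebra (ZMod p) F := ZMod.algebra F p
  let _ : Module (ZMod p) V := Module.compHom V (algebraMap (ZMod p) F)
  have hsm : ∀ (c : ZMod p) (v : V), c • v = (algebraMap (ZMod p) F c) • v := fun _ _ => rfl
  let W : Submodule (ZMod p) V :=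
    { carrier := A
      add_mem' := fun ha hb => A.add_mem ha hb
      zero_mem' := A.zero_mem
      smul_mem' := by
        intro c a ha
        obtain ⟨n, rfl⟩ := ZMod.natCast_zmod_surjective c
        rw [hsm, map_natCast, Nat.cast_smul_eq_nsmul]
        exact A.nsmul_mem ha n }
  have hW : ∀ v, v ∈ W ↔ v ∈ A := fun _ => Iff.rfl
  have hfinW : Module.Finite (ZMod p) W := Module.Finite.of_finite
  have hfinF : Module.Finite (ZMod p) F := Module.Finite.of_finite
  have hcA : Nat.card A = p ^ Module.finrank (ZMod p) W := by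
    have : Nat.card W = Nat.card (ZMod p) ^ Module.finrank (ZMod p) W := Module.natCard_eq_pow_finrank
    rw [Nat.card_zmod] at this
    exact this
  have hcF : Nat.card F = p ^ Module.finrank (ZMod p) F := by
    have : Nat.card F = Nat.card (ZMod p) ^ Module.finrank (ZMod p) F := Module.natCard_eq_pow_finrank
    rwa [Nat.card_zmod] at this
  rw [hcA, hcF, ← pow_mul]
  apply Nat.pow_le_pow_right (Fact.out : p.Prime).pos
  by_contra hcon
  push Not at hcon
  set d := Module.finrank (ZMod p) W with hd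
  set m := Module.finrank (ZMod p) F with hm
  let a := Module.finBasis (ZMod p) W
  let b := Module.finBasis (ZMod p) F
  let P : Fin m → MvPolynomial (Fin d) (ZMod p) := fun i =>
    ∑ j, ∑ k, MvPolynomial.C (b.repr (2⁻¹ * polar Q (a j : V) (a k : V)) i) *
      (MvPolynomial.X j * MvPolynomial.X k)
  have hdeg : ∀ i, (P i).totalDegree ≤ 2 := by
    intro i
    refine MvPolynomial.totalDegree_finsetSum_le fun j _ => MvPolynomial.totalDegree_finsetSum_le fun k _ => ?_
    refine (MvPolynomial.totalDegree_mul _ _).trans ?_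
    rw [MvPolynomial.totalDegree_C, zero_add]
    refine (MvPolynomial.totalDegree_mul _ _).trans ?_
    rw [MvPolynomial.totalDegree_X, MvPolynomial.totalDegree_X]
  have hcw := char_dvd_card_solutions_of_fintype_sum_lt (K := ZMod p) p (f := P) (by
    refine lt_of_le_of_lt (Finset.sum_le_sum fun i _ => hdeg i) ?_
    rw [Finset.sum_const, Finset.card_univ, Fintype.card_fin, Fintype.card_fin, smul_eq_mul]
    exact hcon)
  -- values
  have hval : ∀ (x : Fin d → ZMod p) (i : Fin m),
      MvPolynomial.eval x (P i) = b.repr (Q (∑ j, x j • (a j : V))) i := by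
    intro x i
    have hQ : Q (∑ j, x j • (a j : V)) = ∑ j, ∑ k, (x j * x k) • (2⁻¹ * polar Q (a j : V) (a k : V)) := by
      have h3 : ∀ v : V, Q v = 2⁻¹ * polar Q v v := by
        intro v
        rw [polar_self', inv_mul_cancel_left₀ h2]
      rw [h3]
      have h4 : polar Q (∑ j, x j • (a j : V)) (∑ j, x j • (a j : V)) =
          ∑ j, ∑ k, (algebraMap (ZMod p) F (x j * x k)) * polar Q (a j : V) (a k : V) := by
        change polarBilin Q (∑ j, x j • (a j : V)) (∑ j, x j • (a j : V)) = _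
        rw [map_sum, Finset.sum_comm]
        refine Finset.sum_congr rfl fun k _ => ?_
        rw [map_sum, LinearMap.sum_apply]
        refine Finset.sum_congr rfl fun j _ => ?_
        rw [hsm, hsm, map_smul, map_smul, LinearMap.smul_apply, smul_eq_mul, smul_eq_mul, map_mul]
        change _ * (_ * polar Q (a j : V) (a k : V)) = _
        ring
      rw [h4, Finset.mul_sum]
      refine Finset.sum_congr rfl fun j _ => ?_
      rw [Finset.mul_sum]
      refine Finset.sum_congr rfl fun k _ => ?_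
      rw [Algebra.smul_def]
      ring
    rw [hQ]
    simp only [map_sum, Finsupp.coe_finsetSum, Finset.sum_apply, map_smul, Finsupp.coe_smul, Pi.smul_apply,
      smul_eq_mul]
    change MvPolynomial.eval x (∑ j, ∑ k, MvPolynomial.C (b.repr (2⁻¹ * polar Q (a j : V) (a k : V)) i) *
      (MvPolynomial.X j * MvPolynomial.X k)) = _
    simp only [map_sum, map_mul, MvPolynomial.eval_C, MvPolynomial.eval_X]
    refine Finset.sum_congr rfl fun j _ => Finset.sum_congr rfl fun k _ => ?_
    ring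
  -- the only solution is zero
  have huniq : ∀ x : Fin d → ZMod p, (∀ i, MvPolynomial.eval x (P i) = 0) → x = 0 := by
    intro x hx
    have h3 : Q (∑ j, x j • (a j : V)) = 0 := by
      apply b.repr.injective
      ext i
      rw [← hval, hx, map_zero]
      rfl
    have h4 : (∑ j, x j • (a j : V)) ∈ A := by
      rw [← hW]
      exact Submodule.sum_mem _ fun j _ => W.smul_mem _ (a j).2
    have h5 := hA _ h4 h3
    have h6 : ∑ j, x j • a j = 0 := by
      apply Subtype.ext
      rw [AddSubmonoidClass.coe_finsetSum]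
      exact h5
    have h7 := Fintype.linearIndependent_iff.1 a.linearIndependent x h6
    funext j
    exact h7 j
  have hcard : Fintype.card {x : Fin d → ZMod p // ∀ i, MvPolynomial.eval x (P i) = 0} = 1 := by
    rw [Fintype.card_eq_one_iff]
    refine ⟨⟨0, fun i => ?_⟩, fun y => Subtype.ext (huniq y.1 y.2)⟩
    rw [hval]
    simp
  have hcw' : p ∣ 1 := by
    rw [← hcard]
    convert hcw
  exact (Fact.out : p.Prime).one_lt.ne' (Nat.dvd_one.1 hcw')

/-- **(Chevalley-Warning)** an additive group of vectors without nonzero singular vector -/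
theorem card_le_sq [Finite F] [Finite V] (h2 : (2 : F) ≠ 0) (A : AddSubgroup V)
    (hA : ∀ a ∈ A, Q a = 0 → a = 0) : Nat.card A ≤ Nat.card F ^ 2 := by
  obtain ⟨p, hp⟩ := CharP.exists F
  cases nonempty_fintype F
  have hpp : Fact p.Prime := ⟨CharP.char_is_prime F p⟩
  exact card_le_sq_aux p h2 A hA

/-- **a subgroup without fundamental involutions meets some Siegel group in at most `q²` elements** -/
theorem exists_sing [Finite F] [FiniteDimensional F V] (h2 : (2 : F) ≠ 0) (hQ : Nondeg Q)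
    (h3 : 3 ≤ Module.finrank F V) (X : Subgroup ↥(E Q)) (hX : ∀ z ∈ X, ¬ Fund Q z) :
    ∃ (e f : V) (h : Hyp Q e f), Nat.card (X ⊓ RS Q e h.left : Subgroup ↥(E Q)) ≤ Nat.card F ^ 2 := by
  obtain ⟨p, hp⟩ := CharP.exists F
  have hfinV : Finite V := Module.finite_of_finite F
  cases nonempty_fintype F
  have hpp : Fact p.Prime := ⟨CharP.char_is_prime F p⟩
  have hnt : Nontrivial V := Module.nontrivial_of_finrank_pos (R := F) (by omega)
  obtain ⟨c, hc0, hc⟩ := exists_fix h2 hX
  obtain ⟨s, -, hs0, hs⟩ := OrthFinite.exists_sing_mem (Q := Q) (⊤ : Submodule F V) (by rwa [finrank_top])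
  obtain ⟨t, hst⟩ := OrthTrans.exists_hyp hQ hs hs0
  obtain ⟨e, he, hec⟩ := exists_sing_polar_one hQ hst hc0
  have he0 : e ≠ 0 := by
    rintro rfl
    rw [polar_zero_left] at hec
    exact zero_ne_one hec
  obtain ⟨f, hef⟩ := OrthTrans.exists_hyp hQ he he0
  refine ⟨e, f, hef, ?_⟩
  let A : AddSubgroup V :=
    { carrier := {w | w ∈ Dp Q e f ∧ S Q e w ∈ X}
      add_mem' := by
        rintro a b ⟨ha, ha'⟩ ⟨hb, hb'⟩
        refine ⟨(Dp Q e f).add_mem ha hb, ?_⟩
        rw [S_add he ha.1 hb.1]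
        exact X.mul_mem ha' hb'
      zero_mem' := by
        refine ⟨(Dp Q e f).zero_mem, ?_⟩
        rw [S_zero]
        exact X.one_mem
      neg_mem' := by
        rintro a ⟨ha, ha'⟩
        refine ⟨(Dp Q e f).neg_mem ha, ?_⟩
        rw [← S_inv he ha.1]
        exact X.inv_mem ha' }
  have hA : ∀ a ∈ A, Q a = 0 → a = 0 := by
    rintro a ⟨ha, ha'⟩ hQa
    have h4 := hc e a he hQa ha.1 ha'
    rw [S_ap' he ha.1 hQa, hec, one_smul, add_sub_assoc] at h4
    have h5 : a = polar Q a c • e := by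
      have := add_eq_left.1 h4
      exact sub_eq_zero.1 this
    have h6 := ha.2
    rw [h5, polar_smul_right, polar_comm Q f e, hef.pair, smul_eq_mul, mul_one] at h6
    rw [h5, h6, zero_smul]
  refine le_trans (le_of_eq ?_) (card_le_sq h2 A hA)
  refine Nat.card_congr (Equiv.symm ?_)
  refine Equiv.ofBijective (fun w : A => (⟨S Q e w, w.2.2, (mem_RS_iff hef).2 ⟨_, w.2.1, rfl⟩⟩ :
    (X ⊓ RS Q e hef.left : Subgroup ↥(E Q)))) ⟨?_, ?_⟩
  · intro a b hab
    exact Subtype.ext (S_inj hef a.2.1 b.2.1 (congrArg Subtype.val hab))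
  · rintro ⟨g, hgX, hg⟩
    obtain ⟨w, hw, rfl⟩ := (mem_RS_iff hef).1 hg
    exact ⟨⟨w, hw, hgX⟩, rfl⟩

end Cfsg.Agent.H989.Fx
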