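import Cfsg.Agent.H989.Fx.Ty
import Cfsg.Agent.H325.IF.Inv3
import Cfsg.Agent.LieClassical.OrthForms

/-!
# S5719, orthogonal groups, `q` odd: exact class sizes of involutions of `E Q` (helper989)

* `cls_card` : `|t^E| |O(V_-)| |O(V_+)| = |O(V)|`;
* `exists_ty_V` : the types of `V_-`, `V_+`;
* `cls_le` : `|t^E| ≤ q^(k (n - k))`;
* `fund_six`, `fund_seven`, `fund_eight`, `fund_nine`, `fund_ten`, `eight_ten` : numbers.
-/

set_option autoImplicit false
set_option maxHeartbeats 400000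
set_option linter.unusedSimpArgs false
set_option linter.unusedVariables false
set_option linter.unusedSectionVars false

namespace Cfsg.Agent.H989.Fx

open QuadraticMap Module Cfsg.Agent.LieClassical Cfsg.Agent.LieClassical.OrthCore Cfsg.Agent.LieClassical.OrthTrans
open Cfsg.Agent.H160.QSpin Cfsg.Agent.H160.QDisc
open Cfsg.Agent.H325.IF (Vm Vp mem_Vm mem_Vp isCompl polar_Vm_Vp hp dc_hp nondeg_hp isConj_of_finrank dc_Vm dc_Vp
  even_Vm)
open Cfsg.Agent.H989.Gs.Gen

universe u v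

variable {F : Type u} {V : Type v} [Field F] [AddCommGroup V] [Module F V] {Q : QuadraticForm F V}

/-! ### Discriminants and types -/

section disc

variable [Fintype F] [DecidableEq F] [FiniteDimensional F V]

theorem dc_step {e f : V} (h : Hyp Q e f) : dc Q = dc (rU Q (Dp Q e f)) * quadraticChar F (-1) := by
  have h1 : IsIso ((rU Q (Dp Q e f)).prod (hp F)) Q (dec h) := by
    intro x
    exact polar_dec h _ _ x.1.2
  rw [dc_iso h1, dc_prod, dc_hp]

theorem Ty.disc_eq (h2 : (2 : F) ≠ 0) (m : ℕ) : ∀ {V : Type v} [AddCommGroup V] [Module F V]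
    [FiniteDimensional F V] {Q : QuadraticForm F V} {ε : ℤ}, Ty Q (2 * m) ε →
    dc Q = quadraticChar F (-1) ^ m * ε := by
  have hq := one_lt_q F
  induction m with
  | zero =>
    intro V _ _ _ Q ε hT
    have hε : ε = 1 := by
      have h3 := hT.cnt
      have hsub : Subsingleton V := Module.finrank_zero_iff.1 hT.dim
      rw [zn_of_aniso (Q := Q) (fun v _ => Subsingleton.elim v 0), Nat.cast_one, show 2 * 0 / 2 = 0 from rfl,
        show 2 * 0 = 0 from rfl, pow_zero] at h3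
      have h4 : (ε - 1) * ((Nat.card F : ℤ) - 1) = 0 := by linear_combination -h3
      rcases mul_eq_zero.1 h4 with h5 | h5
      · omega
      · omega
    rw [hε, pow_zero, one_mul]
    unfold Cfsg.Agent.H160.QDisc.dc
    rw [gdet_of_zero Q hT.dim, map_one]
  | succ m ih =>
    intro V _ _ _ Q ε hT
    by_cases hp1 : 1 ≤ 2 * m ∨ ε = 1
    · obtain ⟨e, f, hef⟩ := exists_hyp_of_ty (n := 2 * m) hT hp1
      rw [dc_step hef, ih (Ty.dp (n := 2 * m) hT hef)]
      ring
    · push Not at hp1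
      have hm : m = 0 := by omega
      subst hm
      have hε : ε = -1 := by
        rcases hT.par with ⟨h3, -⟩ | ⟨-, h3 | h3⟩
        · exact absurd h3 (by decide)
        · exact absurd h3 hp1.2
        · exact h3
      have h4 := hT.cnt
      rw [hε] at h4
      have h5 : zn Q = 1 := by
        have h6 : (Nat.card F : ℤ) * zn Q = Nat.card F * 1 := by
          rw [h4]
          norm_num
          ring
        exact_mod_cast mul_left_cancel₀ (by omega : (Nat.card F : ℤ) ≠ 0) h6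
      have han : ∀ v, Q v = 0 → v = 0 := by
        rw [zn, Nat.card_eq_one_iff_unique] at h5
        obtain ⟨h6, -⟩ := h5
        intro v hv
        exact congrArg Subtype.val (Subsingleton.elim (⟨v, hv⟩ : {v : V // Q v = 0}) ⟨0, QuadraticMap.map_zero Q⟩)
      have h6 : dc Q ≠ quadraticChar F (-1) := by
        intro h6
        obtain ⟨e, he⟩ := exists_iso h2 (nondeg_hp (F := F)) hT.nd (by simp [hT.dim]) (by rw [dc_hp, h6])
        have h7 : Q (e (1, 0)) = 0 := by
          rw [he]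
          change (1 : F) * 0 = 0
          rw [mul_zero]
        have h8 := han _ h7
        rw [LinearEquiv.map_eq_zero_iff] at h8
        exact one_ne_zero (congrArg Prod.fst h8)
      have h7 := dc_cases hT.nd
      have h8 : quadraticChar F (-1) = 1 ∨ quadraticChar F (-1) = -1 :=
        quadraticChar_dichotomy (neg_ne_zero.2 one_ne_zero)
      rw [hε, zero_add, pow_one]
      rcases h7 with h7 | h7 <;> rcases h8 with h8 | h8 <;> rw [h7, h8] at h6 ⊢ <;> simp_all

end disc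

/-! ### Involutions -/

theorem osum_V (h2 : (2 : F) ≠ 0) {t : ↥(E Q)} (ht : t * t = 1) : Osum Q (Vm t) (Vp t) :=
  ⟨isCompl h2 ht, fun u hu w hw => polar_Vm_Vp h2 hu hw⟩

theorem index_centralizer_eq {G : Type*} [Group G] (t : G) :
    (Subgroup.centralizer ({t} : Set G)).index = Nat.card {s : G // IsConj t s} := by
  have key : ∀ g h : G, g * t * g⁻¹ = h * t * h⁻¹ ↔ g⁻¹ * h ∈ Subgroup.centralizer ({t} : Set G) := by
    intro g h
    rw [Subgroup.mem_centralizer_singleton_iff]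
    constructor
    · intro h1
      have h2 : t = g⁻¹ * (h * t * h⁻¹) * g := by rw [← h1]; group
      calc g⁻¹ * h * t = g⁻¹ * (h * t * h⁻¹) * g * (g⁻¹ * h) := by group
        _ = t * (g⁻¹ * h) := by rw [← h2]
    · intro h1
      calc g * t * g⁻¹ = g * (t * (g⁻¹ * h)) * h⁻¹ := by group
        _ = g * (g⁻¹ * h * t) * h⁻¹ := by rw [h1]
        _ = h * t * h⁻¹ := by group
  refine Nat.card_congr (Equiv.ofBijective (fun q : G ⧸ Subgroup.centralizer ({t} : Set G) =>
    (⟨q.out * t * q.out⁻¹, isConj_iff.2 ⟨q.out, rfl⟩⟩ : {s : G // IsConj t s})) ⟨?_, ?_⟩)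
  · intro q q' h
    have h1 := (key _ _).1 (congrArg Subtype.val h)
    rw [← Quotient.out_eq' q, ← Quotient.out_eq' q']
    exact QuotientGroup.eq.2 h1
  · rintro ⟨s, hs⟩
    obtain ⟨c, rfl⟩ := isConj_iff.1 hs
    refine ⟨(c : G ⧸ Subgroup.centralizer ({t} : Set G)), Subtype.ext ?_⟩
    rw [key]
    rw [← QuotientGroup.eq]
    exact Quotient.out_eq' _

/-- the conjugation action -/
@[instance_reducible] def conjAct (Q : QuadraticForm F V) : MulAction ↥(O Q) ↥(E Q) where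
  smul a s := ⟨a.1 * s.1 * a.1⁻¹, conj_mem_E a.2 s.2⟩
  one_smul s := Subtype.ext (by
    change (1 : V ≃ₗ[F] V) * s.1 * (1 : V ≃ₗ[F] V)⁻¹ = s.1
    group)
  mul_smul a b s := Subtype.ext (by
    change (a.1 * b.1) * s.1 * (a.1 * b.1)⁻¹ = a.1 * (b.1 * s.1 * b.1⁻¹) * a.1⁻¹
    group)

/-- **the class size** -/
theorem cls_card [Finite F] [FiniteDimensional F V] (h2 : (2 : F) ≠ 0) (hG : Good Q) {t : ↥(E Q)} (ht : t * t = 1) :
    (Subgroup.centralizer ({t} : Set ↥(E Q))).index *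
      (Nat.card ↥(O (rU Q (Vm t))) * Nat.card ↥(O (rU Q (Vp t)))) = Nat.card ↥(O Q) := by
  have hfin : Finite V := Module.finite_of_finite F
  let _ : MulAction ↥(O Q) ↥(E Q) := conjAct Q
  have hact : ∀ (a : ↥(O Q)) (s : ↥(E Q)), ((a • s : ↥(E Q)) : V ≃ₗ[F] V) = a.1 * s.1 * a.1⁻¹ := fun _ _ => rfl
  have h1 := Subgroup.index_mul_card (MulAction.stabilizer ↥(O Q) t)
  have key : ∀ (a : ↥(O Q)) (v : V), ap (a • t) ((a : V ≃ₗ[F] V) v) = (a : V ≃ₗ[F] V) (ap t v) := by
    intro a v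
    change (a.1 * t.1 * a.1⁻¹ : V ≃ₗ[F] V) (a.1 v) = a.1 (t.1 v)
    rw [LinearEquiv.mul_apply, LinearEquiv.mul_apply]
    congr 2
    exact a.1.symm_apply_apply v
  rw [← h1, MulAction.index_stabilizer, index_centralizer_eq, ← card_stab (osum_V h2 ht)]
  congr 1
  · have h3 : MulAction.orbit ↥(O Q) t = {s | IsConj t s} := by
      ext s
      constructor
      · rintro ⟨a, rfl⟩
        change IsConj t (a • t)
        refine isConj_of_finrank h2 hG ht ?_ ?_
        · apply Subtype.ext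
          change (a • t : ↥(E Q)).1 * (a • t : ↥(E Q)).1 = 1
          rw [hact]
          have h4 : t.1 * t.1 = 1 := congrArg Subtype.val ht
          calc a.1 * t.1 * a.1⁻¹ * (a.1 * t.1 * a.1⁻¹) = a.1 * (t.1 * t.1) * a.1⁻¹ := by group
            _ = 1 := by rw [h4]; group
        · refine LinearEquiv.finrank_eq (a.1.submoduleMap (Vm t) |>.trans (LinearEquiv.ofEq _ _ ?_))
          ext v
          rw [Submodule.mem_map]
          constructor
          · rintro ⟨w, hw, rfl⟩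
            rw [mem_Vm] at hw ⊢
            change ap (a • t) ((a : V ≃ₗ[F] V) w) = -((a : V ≃ₗ[F] V) w)
            rw [key, hw, map_neg]
          · intro hv
            obtain ⟨w, rfl⟩ := a.1.surjective v
            refine ⟨w, ?_, rfl⟩
            rw [mem_Vm] at hv ⊢
            rw [key] at hv
            apply a.1.injective
            rw [hv, map_neg]
      · intro hs
        obtain ⟨c, rfl⟩ := isConj_iff.1 hs
        exact ⟨⟨c.1, E_le_O c.2⟩, rfl⟩
    rw [h3]
    rfl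
  · refine Nat.card_congr (Equiv.subtypeEquivRight fun g => ?_)
    rw [MulAction.mem_stabilizer_iff]
    constructor
    · rintro ⟨hU, hW⟩
      apply ext_ap
      intro v
      obtain ⟨v, rfl⟩ := g.1.surjective v
      change ap (g • t) ((g : V ≃ₗ[F] V) v) = _
      rw [key]
      obtain ⟨u, hu, w, hw, rfl⟩ := (osum_V h2 ht).exists_dec v
      rw [map_add g.1, ap_add, ap_add, mem_Vm.1 (hU u hu), mem_Vp.1 (hW w hw), mem_Vm.1 hu, mem_Vp.1 hw, map_add,
        map_neg]
    · intro hg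
      have h4 : ∀ v, ap t ((g : V ≃ₗ[F] V) v) = (g : V ≃ₗ[F] V) (ap t v) := by
        intro v
        rw [← key, hg]
      constructor
      · intro u hu
        rw [mem_Vm] at hu ⊢
        rw [h4, hu, map_neg]
      · intro w hw
        rw [mem_Vp] at hw ⊢
        rw [h4, hw]

/-- **the types of the eigenspaces** -/
theorem exists_ty_V [Finite F] [FiniteDimensional F V] (h2 : (2 : F) ≠ 0) (hG : Good Q) {n : ℕ} {ε : ℤ}
    (hT : Ty Q n ε) {t : ↥(E Q)} (ht : t * t = 1) : ∃ (k : ℕ) (δ : ℤ), finrank F (Vm t) = 2 * k ∧ 2 * k ≤ n ∧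
      (δ = 1 ∨ δ = -1) ∧ (Even k → δ = 1) ∧ Ty (rU Q (Vm t)) (2 * k) δ ∧ Ty (rU Q (Vp t)) (n - 2 * k) (δ * ε) := by
  classical
  cases nonempty_fintype F
  obtain ⟨k, hk⟩ := even_Vm h2 ht hG
  have hk' : finrank F (Vm t) = 2 * k := by omega
  have hsum := (osum_V h2 ht).finrank
  rw [hT.dim, hk'] at hsum
  have hχ : quadraticChar F (-1) = 1 ∨ quadraticChar F (-1) = -1 :=
    quadraticChar_dichotomy (neg_ne_zero.2 one_ne_zero)
  have hχ2 : quadraticChar F (-1) * quadraticChar F (-1) = 1 := by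
    rcases hχ with h | h <;> rw [h] <;> norm_num
  have hχk : ∀ k : ℕ, quadraticChar F (-1) ^ k * quadraticChar F (-1) ^ k = 1 := by
    intro k
    rw [← mul_pow, hχ2, one_pow]
  obtain ⟨δ, hδ⟩ := exists_ty h2 (2 * k) (Vm t) (rU Q (Vm t)) ((osum_V h2 ht).nondeg_left hG.nondeg) hk'
  obtain ⟨η, hη⟩ := exists_ty h2 (n - 2 * k) (Vp t) (rU Q (Vp t)) ((osum_V h2 ht).symm.nondeg_left hG.nondeg)
    (by omega)
  have e1 := hδ.disc_eq h2
  rw [dc_Vm h2 ht hG] at e1
  have e2 : δ = quadraticChar F (-1) ^ k := by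
    linear_combination quadraticChar F (-1) ^ k * e1.symm - δ * hχk k
  have hδ1 : δ = 1 ∨ δ = -1 := by
    rw [e2]
    rcases hχ with h | h <;> rw [h]
    · left; rw [one_pow]
    · exact neg_one_pow_eq_or ℤ k
  refine ⟨k, δ, hk', by omega, hδ1, ?_, hδ, ?_⟩
  · intro he
    rw [e2]
    rcases hχ with h | h <;> rw [h]
    · rw [one_pow]
    · exact he.neg_one_pow
  · have : η = δ * ε := by
      rcases hT.par with ⟨h3, h4⟩ | ⟨h3, h4⟩
      · rcases hη.par with ⟨-, h5⟩ | ⟨h5, -⟩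
        · rw [h5, h4, mul_zero]
        · rw [Nat.odd_iff] at h3
          rw [Nat.even_iff] at h5
          omega
      · obtain ⟨m, rfl⟩ := h3
        have h5 : m + m - 2 * k = 2 * (m - k) := by omega
        have h6 : m + m = 2 * m := by omega
        rw [h5] at hη
        rw [h6] at hT
        have e3 := hη.disc_eq h2
        have e4 := hT.disc_eq h2
        have e5 := dc_Vp h2 ht hG
        have h7 : quadraticChar F (-1) ^ m = quadraticChar F (-1) ^ k * quadraticChar F (-1) ^ (m - k) := by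
          rw [← pow_add]
          congr 1
          omega
        have e6 : quadraticChar F (-1) ^ (m - k) * η = quadraticChar F (-1) ^ m * ε := by
          rw [← e3, ← e4]
          exact e5
        rw [h7] at e6
        rw [e2]
        linear_combination quadraticChar F (-1) ^ (m - k) * e6 - η * hχk (m - k) +
          quadraticChar F (-1) ^ k * ε * hχk (m - k)
    rw [← this]
    exact hη

/-! ### The general bound -/

section bound

/-- `∏ (1 - q^(-2i))` -/
noncomputable def PR (q : ℝ) (m : ℕ) : ℝ := ∏ i ∈ Finset.range m, (1 - (q ^ (2 * (i + 1)))⁻¹)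

theorem PR_succ (q : ℝ) (m : ℕ) : PR q (m + 1) = PR q m * (1 - (q ^ (2 * (m + 1)))⁻¹) := Finset.prod_range_succ _ _

theorem PP_eq {q : ℤ} (hq : 1 < q) (m : ℕ) : (PP q m : ℝ) = (q : ℝ) ^ (m * (m + 1)) * PR q m := by
  have hq0 : (q : ℝ) ≠ 0 := by
    have : (q : ℤ) ≠ 0 := by omega
    exact_mod_cast this
  induction m with
  | zero => simp [PP_zero, PR]
  | succ m ih =>
    rw [PP_succ, PR_succ]
    push_cast
    rw [ih]
    have h1 : (q : ℝ) ^ (2 * (m + 1)) ≠ 0 := pow_ne_zero _ hq0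
    have h2 : (q : ℝ) ^ (2 * (m + 1)) - 1 = (q : ℝ) ^ (2 * (m + 1)) * (1 - ((q : ℝ) ^ (2 * (m + 1)))⁻¹) := by
      rw [mul_sub, mul_one, mul_inv_cancel₀ h1]
    have h3 : (m + 1) * (m + 1 + 1) = m * (m + 1) + 2 * (m + 1) := by ring
    rw [h2, h3, pow_add]
    ring

theorem PR_bounds {q : ℝ} (hq : 3 ≤ q) (m : ℕ) : 7 / 8 + 1 / 8 * (1 / 9) ^ m ≤ PR q m ∧ PR q m ≤ 1 := by
  induction m with
  | zero => simp [PR]; norm_num
  | succ m ih =>
    obtain ⟨h1, h2⟩ := ih
    rw [PR_succ]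
    have h3 : (q ^ (2 * (m + 1)))⁻¹ ≤ (1 / 9 : ℝ) ^ (m + 1) := by
      rw [pow_mul, ← inv_pow]
      apply pow_le_pow_left₀ (by positivity)
      rw [one_div]
      apply inv_anti₀ (by norm_num)
      nlinarith
    have h4 : 0 ≤ (q ^ (2 * (m + 1)))⁻¹ := by positivity
    have h5 : (1 / 9 : ℝ) ^ (m + 1) = (1 / 9) ^ m * (1 / 9) := pow_succ _ _
    have h6 : 0 ≤ (1 / 9 : ℝ) ^ m := by positivity
    have h7 : 0 ≤ PR q m := le_trans (by positivity) h1
    constructor
    · rw [h5] at h3 ⊢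
      nlinarith [mul_nonneg h7 h4, mul_le_mul_of_nonneg_right h2 h4]
    · nlinarith [mul_nonneg h7 h4]

theorem three_le_q [Finite F] (h2 : (2 : F) ≠ 0) : 3 ≤ Nat.card F := by
  have := Fintype.ofFinite F
  rw [Nat.card_eq_fintype_card]
  have h3 : 1 < Fintype.card F := Fintype.one_lt_card
  rcases Nat.lt_or_ge 2 (Fintype.card F) with h4 | h4
  · exact h4
  · exfalso
    have h5 : Fintype.card F = 2 := by omega
    have h6 : ((Fintype.card F : ℕ) : F) = 0 := FiniteField.cast_card_eq_zero F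
    rw [h5] at h6
    exact h2 (by exact_mod_cast h6)

/-- **the normalised order** -/
theorem Ty.norm [Finite F] [FiniteDimensional F V] (h2 : (2 : F) ≠ 0) {n : ℕ} {ε : ℤ} (hT : Ty Q n ε) (hn : 1 ≤ n) :
    ∃ a : ℝ, (Nat.card ↥(O Q) : ℝ) = 2 * (Nat.card F : ℝ) ^ (n.choose 2) * a ∧ 2 / 3 ≤ a ∧
      (n ≠ 2 → 7 / 9 ≤ a) ∧ (n ≠ 2 → a ≤ 1) := by
  have hq := one_lt_q F
  have h3' : (3 : ℝ) ≤ Nat.card F := by exact_mod_cast three_le_q h2
  have hcast : ((Nat.card F : ℤ) : ℝ) = (Nat.card F : ℝ) := by push_cast; rfl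
  rcases Nat.even_or_odd' n with ⟨m, rfl | rfl⟩
  · obtain ⟨m, rfl⟩ : ∃ k, m = k + 1 := ⟨m - 1, by omega⟩
    have h1 := Ty.card_even h2 m hT
    have h4 : (Nat.card ↥(O Q) : ℝ) = 2 * (Nat.card F : ℝ) ^ ((m + 1) * m) * ((Nat.card F : ℝ) ^ (m + 1) - ε) *
        ((Nat.card F : ℝ) ^ (m * (m + 1)) * PR (Nat.card F) m) := by
      rw [← hcast, ← PP_eq hq]
      exact_mod_cast h1
    obtain ⟨b1, b2⟩ := PR_bounds h3' m
    have hqm : (Nat.card F : ℝ) ^ (m + 1) ≠ 0 := by positivity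
    have hε : (ε : ℝ) = 1 ∨ (ε : ℝ) = -1 := by
      rcases hT.par with ⟨h5, -⟩ | ⟨-, rfl | rfl⟩
      · rw [Nat.odd_iff] at h5; omega
      · left; norm_num
      · right; norm_num
    have h6 : 0 ≤ (1 / 9 : ℝ) ^ m := by positivity
    refine ⟨(1 - ε * ((Nat.card F : ℝ) ^ (m + 1))⁻¹) * PR (Nat.card F) m, ?_, ?_, ?_, ?_⟩
    · rw [h4]
      have h7 : (2 * (m + 1)).choose 2 = (m + 1) * m + (m + 1) + m * (m + 1) := by
        rw [Nat.choose_two_right, show 2 * (m + 1) - 1 = 2 * m + 1 by omega, mul_assoc, Nat.mul_div_cancel_left _ (by norm_num)]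
        ring
      have h8 : (Nat.card F : ℝ) ^ (m + 1) - ε =
          (Nat.card F : ℝ) ^ (m + 1) * (1 - ε * ((Nat.card F : ℝ) ^ (m + 1))⁻¹) := by
        field_simp
      have h9 : (Nat.card F : ℝ) ^ ((m + 1) * m + (m + 1) + m * (m + 1)) =
          (Nat.card F : ℝ) ^ ((m + 1) * m) * (Nat.card F : ℝ) ^ (m + 1) * (Nat.card F : ℝ) ^ (m * (m + 1)) := by
        rw [pow_add, pow_add]
      rw [h8, h7, h9]
      ring
    · have h9 : ((Nat.card F : ℝ) ^ (m + 1))⁻¹ ≤ 1 / 3 := by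
        rw [one_div]
        apply inv_anti₀ (by norm_num)
        calc (3 : ℝ) ≤ Nat.card F := h3'
          _ = (Nat.card F : ℝ) ^ 1 := (pow_one _).symm
          _ ≤ _ := pow_le_pow_right₀ (by linarith) (by omega)
      rcases Nat.eq_zero_or_pos m with rfl | hm
      · have : PR (Nat.card F) 0 = 1 := by simp [PR]
        rw [this, mul_one]
        have h10 : 0 ≤ ((Nat.card F : ℝ) ^ (0 + 1))⁻¹ := by positivity
        rcases hε with h | h <;> rw [h] <;> nlinarith
      · have h9' : ((Nat.card F : ℝ) ^ (m + 1))⁻¹ ≤ 1 / 9 := by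
          rw [one_div]
          apply inv_anti₀ (by norm_num)
          calc (9 : ℝ) ≤ (Nat.card F : ℝ) ^ 2 := by nlinarith
            _ ≤ _ := pow_le_pow_right₀ (by linarith) (by omega)
        have h10 : 0 ≤ ((Nat.card F : ℝ) ^ (m + 1))⁻¹ := by positivity
        rcases hε with h | h <;> rw [h] <;> nlinarith
    · intro hn2
      have h9' : ((Nat.card F : ℝ) ^ (m + 1))⁻¹ ≤ 1 / 9 := by
        rw [one_div]
        apply inv_anti₀ (by norm_num)
        calc (9 : ℝ) ≤ (Nat.card F : ℝ) ^ 2 := by nlinarith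
          _ ≤ _ := pow_le_pow_right₀ (by linarith) (by omega)
      have h10 : 0 ≤ ((Nat.card F : ℝ) ^ (m + 1))⁻¹ := by positivity
      rcases hε with h | h <;> rw [h] <;> nlinarith
    · intro hn2
      obtain ⟨j, rfl⟩ : ∃ j, m = j + 1 := ⟨m - 1, by omega⟩
      -- `PR ≤ 1 - q⁻²`
      have h11 : PR (Nat.card F) (j + 1) ≤ 1 - ((Nat.card F : ℝ) ^ 2)⁻¹ := by
        clear b1 b2 hn2 h6 hqm h4 h1 hn hT
        induction j with
        | zero =>
          have : PR (Nat.card F) (0 + 1) = 1 - ((Nat.card F : ℝ) ^ 2)⁻¹ := by simp [PR]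
          rw [this]
        | succ j ih =>
          rw [PR_succ]
          have h12 : 0 ≤ ((Nat.card F : ℝ) ^ (2 * (j + 1 + 1)))⁻¹ := by positivity
          have h13 : 0 ≤ PR (Nat.card F) (j + 1) := le_trans (by positivity) (PR_bounds h3' (j + 1)).1
          nlinarith [mul_nonneg h13 h12]
      have h14 : ((Nat.card F : ℝ) ^ (j + 1 + 1))⁻¹ ≤ ((Nat.card F : ℝ) ^ 2)⁻¹ := by
        apply inv_anti₀ (by positivity)
        exact pow_le_pow_right₀ (by linarith) (by omega)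
      have h10 : 0 ≤ ((Nat.card F : ℝ) ^ (j + 1 + 1))⁻¹ := by positivity
      have h15 : 0 ≤ PR (Nat.card F) (j + 1) := le_trans (by positivity) b1
      have h16 : 0 ≤ ((Nat.card F : ℝ) ^ 2)⁻¹ := by positivity
      rcases hε with h | h <;> rw [h] <;> nlinarith [mul_nonneg h15 h10, mul_nonneg h16 h16]
  · have h1 := Ty.card_odd h2 m hT
    have h4 : (Nat.card ↥(O Q) : ℝ) = 2 * (Nat.card F : ℝ) ^ (m ^ 2) *
        ((Nat.card F : ℝ) ^ (m * (m + 1)) * PR (Nat.card F) m) := by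
      rw [← hcast, ← PP_eq hq]
      exact_mod_cast h1
    obtain ⟨b1, b2⟩ := PR_bounds h3' m
    have h6 : 0 ≤ (1 / 9 : ℝ) ^ m := by positivity
    refine ⟨PR (Nat.card F) m, ?_, by linarith, fun _ => by linarith, fun _ => b2⟩
    rw [h4]
    have h7 : (2 * m + 1).choose 2 = m ^ 2 + m * (m + 1) := by
      rw [Nat.choose_two_right, show 2 * m + 1 - 1 = 2 * m by omega, mul_comm (2 * m + 1), mul_assoc,
        Nat.mul_div_cancel_left _ (by norm_num)]
      ring
    rw [h7, pow_add]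
    ring

theorem choose_two_add (k l : ℕ) : (k + l).choose 2 = k.choose 2 + l.choose 2 + k * l := by
  induction l with
  | zero => simp
  | succ l ih =>
    rw [← add_assoc, Nat.choose_succ_succ' (k + l) 1, Nat.choose_succ_succ' l 1, ih, Nat.choose_one_right,
      Nat.choose_one_right]
    ring

/-- **an involution with a `k`-dimensional `-1`-space has at most `q^(k (n - k))` conjugates** -/
theorem cls_le [Finite F] [FiniteDimensional F V] (h2 : (2 : F) ≠ 0) (hG : Good Q) (h5 : 5 ≤ finrank F V)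
    {t : ↥(E Q)} (ht : t * t = 1) {k : ℕ} (hk : finrank F (Vm t) = k) :
    (Subgroup.centralizer ({t} : Set ↥(E Q))).index ≤ Nat.card F ^ (k * (finrank F V - k)) := by
  have hfin : Finite V := Module.finite_of_finite F
  have hfinE : Finite (V ≃ₗ[F] V) :=
    Finite.of_injective (fun e : V ≃ₗ[F] V => (e : V → V)) DFunLike.coe_injective
  obtain ⟨ε, hT⟩ := exists_ty h2 _ V Q hG.nondeg rfl
  obtain ⟨k', δ, hk', hk2, -, -, hU, hW⟩ := exists_ty_V h2 hG hT ht
  have hkk : k = 2 * k' := by omega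
  subst hkk
  have hc := cls_card h2 hG ht
  have h3' : (3 : ℝ) ≤ Nat.card F := by exact_mod_cast three_le_q h2
  rcases Nat.eq_zero_or_pos (2 * k') with h0 | h0
  · -- `t = 1`
    rw [h0, zero_mul, pow_zero]
    have hVm : ∀ v ∈ Vm t, v = 0 := by
      intro v hv
      have : Vm t = ⊥ := Submodule.finrank_eq_zero.1 (by omega)
      rw [this] at hv
      exact (Submodule.mem_bot F).1 hv
    have ht1 : t = 1 := by
      apply ext_ap
      intro v
      obtain ⟨u, hu, w, hw, rfl⟩ := (osum_V h2 ht).exists_dec v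
      rw [hVm u hu, zero_add, mem_Vp.1 hw, ap_one]
    rw [ht1]
    have : Subgroup.centralizer ({1} : Set ↥(E Q)) = ⊤ := by
      ext x
      simp [Subgroup.mem_centralizer_singleton_iff]
    rw [this, Subgroup.index_top]
  · rcases Nat.eq_zero_or_pos (finrank F V - 2 * k') with h0' | h0'
    · rw [h0', mul_zero, pow_zero]
      have hVp : ∀ v ∈ Vp t, v = 0 := by
        intro v hv
        have hs := (osum_V h2 ht).finrank
        have : Vp t = ⊥ := Submodule.finrank_eq_zero.1 (by omega)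
        rw [this] at hv
        exact (Submodule.mem_bot F).1 hv
      have ht1 : ∀ v, ap t v = -v := by
        intro v
        obtain ⟨u, hu, w, hw, rfl⟩ := (osum_V h2 ht).exists_dec v
        rw [hVp w hw, add_zero, mem_Vm.1 hu]
      have : Subgroup.centralizer ({t} : Set ↥(E Q)) = ⊤ := by
        ext x
        rw [Subgroup.mem_centralizer_singleton_iff]
        simp only [Subgroup.mem_top, iff_true]
        apply ext_ap
        intro v
        rw [ap_mul, ap_mul, ht1, ht1, ap_neg]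
      rw [this, Subgroup.index_top]
    · obtain ⟨a, ha, -, -, ha1⟩ := hT.norm h2 (by omega)
      obtain ⟨b, hb, hb1, hb2, -⟩ := hU.norm h2 h0
      obtain ⟨c, hc', hc1, hc2, -⟩ := hW.norm h2 h0'
      have ha' := ha1 (by omega)
      have hcR : ((Subgroup.centralizer ({t} : Set ↥(E Q))).index : ℝ) *
          ((Nat.card ↥(O (rU Q (Vm t))) : ℝ) * (Nat.card ↥(O (rU Q (Vp t))) : ℝ)) = Nat.card ↥(O Q) := by
        exact_mod_cast hc
      rw [ha, hb, hc'] at hcR
      have hn : (finrank F V).choose 2 = (2 * k').choose 2 + (finrank F V - 2 * k').choose 2 +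
          2 * k' * (finrank F V - 2 * k') := by
        rw [← choose_two_add]
        congr 1
        omega
      rw [hn, pow_add, pow_add] at hcR
      have hbc : a ≤ 2 * (b * c) := by
        by_cases h6 : 2 * k' = 2
        · have := hc2 (by omega)
          nlinarith
        · have := hb2 h6
          nlinarith
      set x := ((Subgroup.centralizer ({t} : Set ↥(E Q))).index : ℝ) with hx
      set A := (Nat.card F : ℝ) ^ (2 * k').choose 2 with hA
      set B := (Nat.card F : ℝ) ^ (finrank F V - 2 * k').choose 2 with hB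
      set C := (Nat.card F : ℝ) ^ (2 * k' * (finrank F V - 2 * k')) with hC
      have hApos : 0 < A := by positivity
      have hBpos : 0 < B := by positivity
      have hCpos : 0 < C := by positivity
      have hABne : A * B ≠ 0 := by positivity
      have e1 : x * (2 * (b * c)) = C * a := by
        apply mul_left_cancel₀ hABne
        linear_combination (1 / 2 : ℝ) * hcR
      have hbc0 : 0 < b * c := by nlinarith
      have e2 : x ≤ C := by
        have e3 : x * (2 * (b * c)) ≤ C * (2 * (b * c)) := by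
          rw [e1]
          exact mul_le_mul_of_nonneg_left hbc hCpos.le
        exact le_of_mul_le_mul_right e3 (by positivity)
      have e4 : ((Subgroup.centralizer ({t} : Set ↥(E Q))).index : ℝ) ≤
          ((Nat.card F ^ (2 * k' * (finrank F V - 2 * k')) : ℕ) : ℝ) := by
        push_cast
        exact e2
      exact_mod_cast e4

end bound

/-! ### Fundamental involutions -/

section fund

/-- the rank of a fundamental involution -/
theorem finrank_Vm_fund [FiniteDimensional F V] (h2 : (2 : F) ≠ 0) {z : ↥(E Q)} (hz : Fund Q z) :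
    finrank F (Vm z) = 4 := by
  obtain ⟨e₁, f₁, e₂, f₂, h, z1, z2, z3, z4, z5⟩ := hz
  obtain ⟨p1, p2, p3, p4, p5, p6, p7, p8, p9, p10, p11, p12, p13, p14, p15, p16⟩ := h.pols
  let L : (F × F × F × F) →ₗ[F] V :=
    { toFun := fun x => x.1 • e₁ + x.2.1 • f₁ + (x.2.2.1 • e₂ + x.2.2.2 • f₂)
      map_add' := fun x y => by
        simp only [Prod.fst_add, Prod.snd_add]
        module
      map_smul' := fun c x => by
        simp only [Prod.smul_fst, Prod.smul_snd, smul_eq_mul, RingHom.id_apply]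
        module }
  have hL : ∀ x, L x = x.1 • e₁ + x.2.1 • f₁ + (x.2.2.1 • e₂ + x.2.2.2 • f₂) := fun x => rfl
  have hinj : Function.Injective L := by
    rw [← LinearMap.ker_eq_bot, LinearMap.ker_eq_bot']
    rintro ⟨a, b, c, d⟩ hx
    rw [hL] at hx
    have k1 : polar Q f₁ (a • e₁ + b • f₁ + (c • e₂ + d • f₂)) = 0 := by rw [hx, polar_zero_right]
    have k2 : polar Q e₁ (a • e₁ + b • f₁ + (c • e₂ + d • f₂)) = 0 := by rw [hx, polar_zero_right]
    have k3 : polar Q f₂ (a • e₁ + b • f₁ + (c • e₂ + d • f₂)) = 0 := by rw [hx, polar_zero_right]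
    have k4 : polar Q e₂ (a • e₁ + b • f₁ + (c • e₂ + d • f₂)) = 0 := by rw [hx, polar_zero_right]
    simp only [polar_add_right, polar_smul_right, p1, p2, p3, p4, p5, p6, p7, p8, p9, p10, p11, p12, p13, p14, p15,
      p16, smul_eq_mul, mul_zero, mul_one, add_zero, zero_add] at k1 k2 k3 k4
    rw [k1, k2, k3, k4]
    rfl
  have hr : LinearMap.range L = Vm z := by
    ext v
    rw [mem_Vm]
    constructor
    · rintro ⟨x, rfl⟩
      rw [hL]
      simp only [ap_add, ap_smul, z1, z2, z3, z4]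
      module
    · intro hv
      rw [fund_ap h z1 z2 z3 z4 z5 v] at hv
      refine ⟨(polar Q f₁ v, polar Q e₁ v, polar Q f₂ v, polar Q e₂ v), ?_⟩
      rw [hL]
      change polar Q f₁ v • e₁ + polar Q e₁ v • f₁ + (polar Q f₂ v • e₂ + polar Q e₂ v • f₂) = v
      generalize (polar Q f₁ v • e₁ + polar Q e₁ v • f₁ + (polar Q f₂ v • e₂ + polar Q e₂ v • f₂)) = d at hv ⊢
      have h6 : (2 : F) • (v - d) = 0 := by
        have : (2 : F) • (v - d) = (v - (2 : F) • d) - -v := by module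
        rw [this, hv, sub_self]
      exact (sub_eq_zero.1 ((smul_eq_zero.1 h6).resolve_left h2)).symm
  rw [← hr, LinearMap.finrank_range_of_inj hinj]
  simp

theorem Ty.fund_types [Finite F] [FiniteDimensional F V] (h2 : (2 : F) ≠ 0) (hG : Good Q) {n : ℕ} {ε : ℤ}
    (hT : Ty Q n ε) {z : ↥(E Q)} (hz : Fund Q z) :
    4 ≤ n ∧ Ty (rU Q (Vm z)) 4 1 ∧ Ty (rU Q (Vp z)) (n - 4) ε := by
  obtain ⟨k, δ, hk, hkn, -, hδ, hU, hW⟩ := exists_ty_V h2 hG hT hz.sq
  rw [finrank_Vm_fund h2 hz] at hk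
  have hk2 : k = 2 := by omega
  subst hk2
  rw [hδ (by decide)] at hU hW
  rw [one_mul] at hW
  exact ⟨hkn, hU, hW⟩

/-- `|z^E| |O_4^+| |O_{n-4}| = |O_n|` -/
theorem Ty.fund_cls [Finite F] [FiniteDimensional F V] (h2 : (2 : F) ≠ 0) (hG : Good Q) {n : ℕ} {ε : ℤ}
    (hT : Ty Q n ε) {z : ↥(E Q)} (hz : Fund Q z) :
    ((Subgroup.centralizer ({z} : Set ↥(E Q))).index : ℤ) *
      (2 * (Nat.card F : ℤ) ^ 2 * ((Nat.card F : ℤ) ^ 2 - 1) ^ 2 * Nat.card ↥(O (rU Q (Vp z)))) =
      Nat.card ↥(O Q) := by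
  obtain ⟨h4, hU, hW⟩ := hT.fund_types h2 hG hz
  have h1 := Ty.card_even h2 1 hU
  have h5 := cls_card h2 hG hz.sq
  have h6 : ((Subgroup.centralizer ({z} : Set ↥(E Q))).index : ℤ) *
      ((Nat.card ↥(O (rU Q (Vm z))) : ℤ) * Nat.card ↥(O (rU Q (Vp z)))) = Nat.card ↥(O Q) := by exact_mod_cast h5
  rw [← h6, h1, PP_succ, PP_zero]
  ring

end fund

/-! ### Numbers -/

section numbers

variable [Finite F] [FiniteDimensional F V] (h2 : (2 : F) ≠ 0) (hG : Good Q)

include h2 hG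

theorem fund_six {ε : ℤ} (hT : Ty Q 6 ε) {z : ↥(E Q)} (hz : Fund Q z) :
    ((Subgroup.centralizer ({z} : Set ↥(E Q))).index : ℤ) * (2 * ((Nat.card F : ℤ) - ε)) =
      (Nat.card F : ℤ) ^ 4 * ((Nat.card F : ℤ) ^ 3 - ε) * ((Nat.card F : ℤ) ^ 2 + 1) := by
  have hq := one_lt_q F
  have h1 := hT.fund_cls h2 hG hz
  rw [Ty.card_even h2 0 (hT.fund_types h2 hG hz).2.2, Ty.card_even h2 2 hT] at h1
  simp only [PP_succ, PP_zero] at h1
  have hne : (2 * (Nat.card F : ℤ) ^ 2 * ((Nat.card F : ℤ) ^ 2 - 1) ^ 2) ≠ 0 := by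
    have : (Nat.card F : ℤ) ^ 2 - 1 ≠ 0 := by nlinarith
    positivity
  apply mul_left_cancel₀ hne
  linear_combination h1

theorem fund_seven {ε : ℤ} (hT : Ty Q 7 ε) {z : ↥(E Q)} (hz : Fund Q z) :
    2 * ((Subgroup.centralizer ({z} : Set ↥(E Q))).index : ℤ) =
      (Nat.card F : ℤ) ^ 6 * ((Nat.card F : ℤ) ^ 2 + 1) * ((Nat.card F : ℤ) ^ 4 + (Nat.card F : ℤ) ^ 2 + 1) := by
  have hq := one_lt_q F
  have h1 := hT.fund_cls h2 hG hz
  rw [Ty.card_odd h2 1 (hT.fund_types h2 hG hz).2.2, Ty.card_odd h2 3 hT] at h1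
  simp only [PP_succ, PP_zero] at h1
  have hne : (2 * (Nat.card F : ℤ) ^ 3 * ((Nat.card F : ℤ) ^ 2 - 1) ^ 3) ≠ 0 := by
    have : (Nat.card F : ℤ) ^ 2 - 1 ≠ 0 := by nlinarith
    positivity
  apply mul_left_cancel₀ hne
  linear_combination h1

theorem fund_eight {ε : ℤ} (hT : Ty Q 8 ε) {z : ↥(E Q)} (hz : Fund Q z) :
    2 * ((Subgroup.centralizer ({z} : Set ↥(E Q))).index : ℤ) * ((Nat.card F : ℤ) ^ 2 - ε) =
      (Nat.card F : ℤ) ^ 8 * ((Nat.card F : ℤ) ^ 4 - ε) * ((Nat.card F : ℤ) ^ 2 + 1) *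
        ((Nat.card F : ℤ) ^ 4 + (Nat.card F : ℤ) ^ 2 + 1) := by
  have hq := one_lt_q F
  have h1 := hT.fund_cls h2 hG hz
  rw [Ty.card_even h2 1 (hT.fund_types h2 hG hz).2.2, Ty.card_even h2 3 hT] at h1
  simp only [PP_succ, PP_zero] at h1
  have hne : (2 * (Nat.card F : ℤ) ^ 4 * ((Nat.card F : ℤ) ^ 2 - 1) ^ 3) ≠ 0 := by
    have : (Nat.card F : ℤ) ^ 2 - 1 ≠ 0 := by nlinarith
    positivity
  apply mul_left_cancel₀ hne
  linear_combination h1

theorem fund_eight_plus (hT : Ty Q 8 1) {z : ↥(E Q)} (hz : Fund Q z) :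
    2 * ((Subgroup.centralizer ({z} : Set ↥(E Q))).index : ℤ) =
      (Nat.card F : ℤ) ^ 8 * ((Nat.card F : ℤ) ^ 2 + 1) ^ 2 * ((Nat.card F : ℤ) ^ 4 + (Nat.card F : ℤ) ^ 2 + 1) := by
  have hq := one_lt_q F
  have h1 := fund_eight h2 hG hT hz
  have hne : (Nat.card F : ℤ) ^ 2 - 1 ≠ 0 := by nlinarith
  apply mul_right_cancel₀ hne
  linear_combination h1

theorem fund_eight_minus (hT : Ty Q 8 (-1)) {z : ↥(E Q)} (hz : Fund Q z) :
    2 * ((Subgroup.centralizer ({z} : Set ↥(E Q))).index : ℤ) =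
      (Nat.card F : ℤ) ^ 8 * ((Nat.card F : ℤ) ^ 4 + 1) * ((Nat.card F : ℤ) ^ 4 + (Nat.card F : ℤ) ^ 2 + 1) := by
  have hq := one_lt_q F
  have h1 := fund_eight h2 hG hT hz
  have hne : (Nat.card F : ℤ) ^ 2 + 1 ≠ 0 := by positivity
  apply mul_right_cancel₀ hne
  linear_combination h1

theorem fund_nine {ε : ℤ} (hT : Ty Q 9 ε) {z : ↥(E Q)} (hz : Fund Q z) :
    2 * ((Subgroup.centralizer ({z} : Set ↥(E Q))).index : ℤ) =
      (Nat.card F : ℤ) ^ 10 * ((Nat.card F : ℤ) ^ 4 + (Nat.card F : ℤ) ^ 2 + 1) * ((Nat.card F : ℤ) ^ 4 + 1) *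
        ((Nat.card F : ℤ) ^ 2 + 1) := by
  have hq := one_lt_q F
  have h1 := hT.fund_cls h2 hG hz
  rw [Ty.card_odd h2 2 (hT.fund_types h2 hG hz).2.2, Ty.card_odd h2 4 hT] at h1
  simp only [PP_succ, PP_zero] at h1
  have hne : (2 * (Nat.card F : ℤ) ^ 6 * ((Nat.card F : ℤ) ^ 2 - 1) ^ 4 * ((Nat.card F : ℤ) ^ 2 + 1)) ≠ 0 := by
    have : (Nat.card F : ℤ) ^ 2 - 1 ≠ 0 := by nlinarith
    positivity
  apply mul_left_cancel₀ hne
  linear_combination h1

theorem fund_ten {ε : ℤ} (hT : Ty Q 10 ε) {z : ↥(E Q)} (hz : Fund Q z) :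
    2 * ((Subgroup.centralizer ({z} : Set ↥(E Q))).index : ℤ) * ((Nat.card F : ℤ) ^ 3 - ε) =
      (Nat.card F : ℤ) ^ 12 * ((Nat.card F : ℤ) ^ 5 - ε) * ((Nat.card F : ℤ) ^ 4 + (Nat.card F : ℤ) ^ 2 + 1) *
        ((Nat.card F : ℤ) ^ 4 + 1) * ((Nat.card F : ℤ) ^ 2 + 1) := by
  have hq := one_lt_q F
  have h1 := hT.fund_cls h2 hG hz
  rw [Ty.card_even h2 2 (hT.fund_types h2 hG hz).2.2, Ty.card_even h2 4 hT] at h1
  simp only [PP_succ, PP_zero] at h1
  have hne : (2 * (Nat.card F : ℤ) ^ 8 * ((Nat.card F : ℤ) ^ 2 - 1) ^ 4 * ((Nat.card F : ℤ) ^ 2 + 1)) ≠ 0 := by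
    have : (Nat.card F : ℤ) ^ 2 - 1 ≠ 0 := by nlinarith
    positivity
  apply mul_left_cancel₀ hne
  linear_combination h1

theorem eight_ten {ε : ℤ} (hT : Ty Q 10 ε) {s : ↥(E Q)} (hs : s * s = 1) (h8 : finrank F (Vm s) = 8) :
    2 * ((Subgroup.centralizer ({s} : Set ↥(E Q))).index : ℤ) * ((Nat.card F : ℤ) - ε) =
      (Nat.card F : ℤ) ^ 8 * ((Nat.card F : ℤ) ^ 5 - ε) * ((Nat.card F : ℤ) ^ 4 + 1) := by
  have hq := one_lt_q F
  obtain ⟨k, δ, hk, hkn, -, hδ, hU, hW⟩ := exists_ty_V h2 hG hT hs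
  have hk4 : k = 4 := by omega
  subst hk4
  rw [hδ (by decide)] at hU hW
  rw [one_mul] at hW
  have h5 := cls_card h2 hG hs
  have h1 : ((Subgroup.centralizer ({s} : Set ↥(E Q))).index : ℤ) *
      ((Nat.card ↥(O (rU Q (Vm s))) : ℤ) * Nat.card ↥(O (rU Q (Vp s)))) = Nat.card ↥(O Q) := by exact_mod_cast h5
  rw [Ty.card_even h2 3 hU, Ty.card_even h2 0 hW, Ty.card_even h2 4 hT] at h1
  simp only [PP_succ, PP_zero] at h1
  have hne : (2 * (Nat.card F : ℤ) ^ 12 * ((Nat.card F : ℤ) ^ 2 - 1) * ((Nat.card F : ℤ) ^ 4 - 1) ^ 2 *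
      ((Nat.card F : ℤ) ^ 6 - 1)) ≠ 0 := by
    have e2 : (Nat.card F : ℤ) ^ 2 - 1 ≠ 0 := by nlinarith
    have e4 : (Nat.card F : ℤ) ^ 4 - 1 ≠ 0 := by
      have : (1 : ℤ) < (Nat.card F : ℤ) ^ 4 := one_lt_pow₀ hq (by norm_num)
      omega
    have e6 : (Nat.card F : ℤ) ^ 6 - 1 ≠ 0 := by
      have : (1 : ℤ) < (Nat.card F : ℤ) ^ 6 := one_lt_pow₀ hq (by norm_num)
      omega
    positivity
  apply mul_left_cancel₀ hne
  linear_combination h1

end numbers

/-! ### The standard forms -/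

section forms

open Cfsg.Agent.LieClassical.OrthForms

variable [Finite F]

theorem ty_odd {n : ℕ} (h2 : (2 : F) ≠ 0) [FiniteDimensional F V] (hQ : Nondeg Q) (hn : finrank F V = n) (ho : Odd n) :
    Ty Q n 0 := by
  obtain ⟨ε, hε⟩ := exists_ty h2 n V Q hQ hn
  rcases hε.par with ⟨-, h⟩ | ⟨h, -⟩
  · rwa [h] at hε
  · rw [Nat.odd_iff] at ho
    rw [Nat.even_iff] at h
    omega

theorem ty_plusForm (m : ℕ) : Ty (plusForm m F) (2 * m) 1 := by
  cases nonempty_fintype F
  classical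
  refine ⟨nondeg_plusForm m F, by simp; omega, Or.inr ⟨even_two_mul m, Or.inl rfl⟩, ?_⟩
  have h1 := QuadCount.card_plus (F := F) m 0
  rw [if_pos rfl] at h1
  have h3 : zn (plusForm m F) = Nat.card {v : Fin m ⊕ Fin m → F // Cfsg.quadFormPlus m F v = 0} := by
    rw [zn, coe_plusForm]
  have h4 : (2 * m) / 2 = m := by omega
  rw [h3, h4, Nat.card_eq_fintype_card (α := F)]
  have h5 : (Fintype.card F : ℤ) * (Nat.card {v : Fin m ⊕ Fin m → F // Cfsg.quadFormPlus m F v = 0} : ℤ) +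
      Fintype.card F ^ m = Fintype.card F ^ (2 * m) + Fintype.card F ^ (m + 1) := by exact_mod_cast h1
  linear_combination h5

theorem ty_minusForm (m : ℕ) (a b : F)
    (hab : ∀ z₁ z₂ : F, z₁ ^ 2 + a * z₁ * z₂ + b * z₂ ^ 2 = 0 → z₁ = 0 ∧ z₂ = 0) :
    Ty (minusForm m F a b) (2 * (m + 1)) (-1) := by
  cases nonempty_fintype F
  classical
  refine ⟨nondeg_minusForm m F a b hab, by simp; omega, Or.inr ⟨even_two_mul _, Or.inr rfl⟩, ?_⟩
  have h1 := QuadCount.card_sum (F := F) m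
    (fun w : Fin 2 → F => w 0 ^ 2 + a * w 0 * w 1 + b * w 1 ^ 2)
  have h2 : Nat.card {w : Fin 2 → F // w 0 ^ 2 + a * w 0 * w 1 + b * w 1 ^ 2 = 0} = 1 := by
    rw [Nat.card_eq_one_iff_unique]
    refine ⟨⟨fun x y => Subtype.ext ?_⟩, ⟨⟨0, by simp⟩⟩⟩
    have hx := hab _ _ x.2
    have hy := hab _ _ y.2
    funext i
    fin_cases i
    · exact hx.1.trans hy.1.symm
    · exact hx.2.trans hy.2.symm
  have h3 : Nat.card {p : (Fin m ⊕ Fin m → F) × (Fin 2 → F) // Cfsg.quadFormPlus m F p.1 +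
      (p.2 0 ^ 2 + a * p.2 0 * p.2 1 + b * p.2 1 ^ 2) = 0} = zn (minusForm m F a b) := by
    refine Nat.card_congr (Equiv.subtypeEquiv (Equiv.sumArrowEquivProdArrow _ _ _).symm ?_)
    rintro ⟨p, w⟩
    rw [coe_minusForm]
    rfl
  rw [h2] at h1
  have h5 : (Fintype.card F : ℤ) * (zn (minusForm m F a b) : ℤ) + Fintype.card F ^ 2 * Fintype.card F ^ m =
      Fintype.card F ^ 2 * Fintype.card F ^ (2 * m) + 1 * Fintype.card F ^ (m + 1) := by
    rw [← h3]
    have h6 : Fintype.card (Fin 2 → F) = Fintype.card F ^ 2 := by simp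
    rw [h6] at h1
    exact_mod_cast h1
  have h4 : (2 * (m + 1)) / 2 = m + 1 := by omega
  rw [h4, Nat.card_eq_fintype_card (α := F)]
  linear_combination h5

end forms

end Cfsg.Agent.H989.Fx
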