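import Cfsg.Agent.H989.Fx.ClsP
import Cfsg.Agent.H989.Fx.OmF
import Cfsg.Agent.H237.IF.Cnt
import Cfsg.Agent.H325.IF.Inv4
import Cfsg.Agent.ClassicalGeometry.OrthAut1

/-!
# S5719: `PΩ_8^+`, involutions which commute with a fundamental `SL_2` (helper989)

`hc_eight` : a fundamental involution whose image commutes with the image of `rhoE (SL_2)` is `rhoE (-1)` up to sign.
-/

set_option autoImplicit false
set_option linter.unusedSectionVars false
set_option linter.unusedSimpArgs false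
set_option linter.unusedVariables false

namespace Cfsg.Agent.H989.Fx

open QuadraticMap Module Cfsg.Agent.LieClassical Cfsg.Agent.LieClassical.OrthCore Cfsg.Agent.LieClassical.OrthTrans
open Cfsg.Agent.H325.IF (Vm Vp mem_Vm mem_Vp Vm_of_fund finrank_Vm_of_fund)
open Cfsg.Agent.H989.Gs.Gen
open Cfsg.Agent.UGT.U2.FOne.Orth (Four tl)
open Cfsg.Agent.LieClassical.SLTwoUnipotent (u l)
open Matrix (SpecialLinearGroup)

universe u v

variable {F : Type u} {V : Type v} [Field F] [AddCommGroup V] [Module F V] {Q : QuadraticForm F V}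

theorem rhoE_u {e₁ f₁ e₂ f₂ : V} (h : Four Q e₁ f₁ e₂ f₂) : h.rhoE (u (-1)) = S Q e₁ f₂ := by
  apply ext_ap
  intro v
  change h.rho (u (-1)) v = _
  rw [h.rho_u, ap_S_tl h.h1.left h.h2.right h.ef, neg_neg, one_smul]

theorem rhoE_l {e₁ f₁ e₂ f₂ : V} (h : Four Q e₁ f₁ e₂ f₂) : h.rhoE (l (-1)) = S Q e₂ f₁ := by
  apply ext_ap
  intro v
  change h.rho (l (-1)) v = _
  rw [h.rho_l, ap_S_tl h.h2.left h.h1.right (by rw [polar_comm]; exact h.fe), neg_neg, one_smul]

/-- commuting up to sign with an element of odd order -/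
theorem comm_of_pow {g x : ↥(E Q)} {p : ℕ} (hp : Odd p) (hx : x ^ p = 1)
    (h : g * x = x * g ∨ ∀ v, ap (g * x * (x * g)⁻¹) v = -v) : g * x = x * g := by
  rcases h with h | h
  · exact h
  · obtain ⟨y, hy⟩ : ∃ y, y = g * x * (x * g)⁻¹ := ⟨_, rfl⟩
    rw [← hy] at h
    have hyc : ∀ k, y * k = k * y := fun k => ext_ap fun v => by rw [ap_mul, ap_mul, h, h, ap_neg]
    have hy2 : y * y = 1 := ext_ap fun v => by rw [ap_mul, h, h, neg_neg, ap_one]
    have h1 : g * x * g⁻¹ = y * x := by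
      rw [hy]
      group
    have h2 : (g * x * g⁻¹) ^ p = 1 := by rw [conj_pow, hx, mul_one, mul_inv_cancel]
    rw [h1, (show Commute y x from hyc x).mul_pow, hx, mul_one] at h2
    obtain ⟨k, rfl⟩ := hp
    have h3 : y = 1 := by
      rw [pow_succ, pow_mul, pow_two, hy2, one_pow, one_mul] at h2
      exact h2
    rw [h3, one_mul] at h1
    exact mul_inv_eq_iff_eq_mul.1 h1

/-- an involution commuting with a fundamental `SL_2` is a scalar on the 4-space -/
theorem scalar_of_comm (h2 : (2 : F) ≠ 0) {e₁ f₁ e₂ f₂ : V} (h : Four Q e₁ f₁ e₂ f₂) {g : ↥(E Q)} (hg : g * g = 1)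
    (c1 : g * S Q e₁ f₂ = S Q e₁ f₂ * g) (c2 : g * S Q e₂ f₁ = S Q e₂ f₁ * g) :
    ∃ a : F, (a = 1 ∨ a = -1) ∧ ap g e₁ = a • e₁ ∧ ap g f₁ = a • f₁ ∧ ap g e₂ = a • e₂ ∧ ap g f₂ = a • f₂ := by
  obtain ⟨p1, p2, p3, p4, p5, p6, p7, p8, p9, p10, p11, p12, p13, p14, p15, p16⟩ := h.pols
  have hgg : ∀ v, ap g (ap g v) = v := fun v => by rw [← ap_mul, hg, ap_one]
  have s1 : ∀ v, ap (S Q e₁ f₂) v = v + polar Q e₁ v • f₂ - polar Q f₂ v • e₁ :=
    fun v => S_ap' h.h1.left h.ef h.h2.right v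
  have s2 : ∀ v, ap (S Q e₂ f₁) v = v + polar Q e₂ v • f₁ - polar Q f₁ v • e₂ :=
    fun v => S_ap' h.h2.left (by rw [polar_comm]; exact h.fe) h.h1.right v
  have k1 : ∀ v, ap g (polar Q e₁ v • f₂ - polar Q f₂ v • e₁) =
      polar Q e₁ (ap g v) • f₂ - polar Q f₂ (ap g v) • e₁ := by
    intro v
    have h3 : ap g (ap (S Q e₁ f₂) v) = ap (S Q e₁ f₂) (ap g v) := by rw [← ap_mul, ← ap_mul, c1]
    rw [s1, s1, add_sub_assoc, ap_add, add_sub_assoc] at h3
    exact add_left_cancel h3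
  have k2 : ∀ v, ap g (polar Q e₂ v • f₁ - polar Q f₁ v • e₂) =
      polar Q e₂ (ap g v) • f₁ - polar Q f₁ (ap g v) • e₂ := by
    intro v
    have h3 : ap g (ap (S Q e₂ f₁) v) = ap (S Q e₂ f₁) (ap g v) := by rw [← ap_mul, ← ap_mul, c2]
    rw [s2, s2, add_sub_assoc, ap_add, add_sub_assoc] at h3
    exact add_left_cancel h3
  obtain ⟨a, b, hf1⟩ : ∃ a b : F, ap g f₁ = a • f₁ + b • e₂ := by
    have := k2 f₂
    rw [p7, p15, one_smul, zero_smul, sub_zero] at this
    exact ⟨_, _, this.trans (by rw [sub_eq_add_neg, ← neg_smul])⟩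
  obtain ⟨c, d, he2⟩ : ∃ c d : F, ap g e₂ = c • f₁ + d • e₂ := by
    have := k2 e₁
    rw [p6, p10, zero_smul, one_smul, zero_sub, ap_neg] at this
    refine ⟨-polar Q e₂ (ap g e₁), polar Q f₁ (ap g e₁), ?_⟩
    rw [← neg_neg (ap g e₂), this]
    module
  have hf2 : ap g f₂ = a • f₂ - b • e₁ := by
    have := k1 f₁
    rw [hf1] at this
    simp only [polar_add_right, polar_smul_right, p1, p2, p3, p4, p5, p6, p7, p8, p9, p10, p11, p12, p13, p14, p15,
      p16, smul_eq_mul, mul_zero, mul_one, add_zero, zero_add, zero_smul, one_smul, sub_zero] at this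
    exact this
  have he1 : ap g e₁ = d • e₁ - c • f₂ := by
    have := k1 e₂
    rw [he2] at this
    simp only [polar_add_right, polar_smul_right, p1, p2, p3, p4, p5, p6, p7, p8, p9, p10, p11, p12, p13, p14, p15,
      p16, smul_eq_mul, mul_zero, mul_one, add_zero, zero_add, zero_smul, one_smul, zero_sub, ap_neg] at this
    rw [← neg_neg (ap g e₁), this]
    module
  have d1 : d * a - c * b = 1 := by
    have : polar Q (ap g e₁) (ap g f₁) = 1 := by rw [polar_ap, p5]
    rw [he1, hf1] at this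
    simp only [polar_sub_left, polar_add_right, polar_smul_right, polar_smul_left, p1, p2, p3, p4, p5, p6, p7, p8, p9,
      p10, p11, p12, p13, p14, p15, p16, smul_eq_mul, mul_zero, mul_one, add_zero, zero_add, zero_sub, sub_zero] at this
    linear_combination this
  have q1 : a • (a • f₁ + b • e₂) + b • (c • f₁ + d • e₂) = f₁ := by
    have := hgg f₁
    rw [hf1, ap_add, ap_smul, ap_smul, hf1, he2] at this
    exact this
  have q2 : c • (a • f₁ + b • e₂) + d • (c • f₁ + d • e₂) = e₂ := by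
    have := hgg e₂
    rw [he2, ap_add, ap_smul, ap_smul, hf1, he2] at this
    exact this
  have r1 := congrArg (polar Q e₁) q1
  have r2 := congrArg (polar Q f₂) q1
  have r3 := congrArg (polar Q e₁) q2
  have r4 := congrArg (polar Q f₂) q2
  simp only [polar_add_right, polar_smul_right, p1, p2, p3, p4, p5, p6, p7, p8, p9, p10, p11, p12, p13, p14, p15,
    p16, smul_eq_mul, mul_zero, mul_one, add_zero, zero_add] at r1 r2 r3 r4
  have t1 : a * (a + d) = 2 := by linear_combination r1 + d1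
  have hne : a + d ≠ 0 := by
    intro h3
    rw [h3, mul_zero] at t1
    exact h2 t1.symm
  have hb : b = 0 := (mul_eq_zero.1 (show b * (a + d) = 0 by linear_combination r2)).resolve_right hne
  have hc : c = 0 := (mul_eq_zero.1 (show c * (a + d) = 0 by linear_combination r3)).resolve_right hne
  subst hb hc
  have ha2 : a * a = 1 := by linear_combination r1
  have had : d = a := by
    have : d * a = 1 := by linear_combination d1
    calc d = d * (a * a) := by rw [ha2, mul_one]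
      _ = (d * a) * a := by ring
      _ = a := by rw [this, one_mul]
  subst had
  refine ⟨d, mul_self_eq_one_iff.1 ha2, ?_, ?_, ?_, ?_⟩
  · rw [he1, zero_smul, sub_zero]
  · rw [hf1, zero_smul, add_zero]
  · rw [he2, zero_smul, zero_add]
  · rw [hf2, zero_smul, sub_zero]

/-- **`hc`** -/
theorem hc_eight [Finite F] [FiniteDimensional F V] (h2 : (2 : F) ≠ 0) (hG : Good Q) {T : Type*} [Group T]
    (π : ↥(E Q) →* T) (hker : ∀ g, π g = 1 ↔ g = 1 ∨ ∀ v, ap g v = -v) (hT : Ty Q 8 1)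
    {e₁ f₁ e₂ f₂ : V} (h : Four Q e₁ f₁ e₂ f₂) {g : ↥(E Q)} (hg : Fund Q g)
    (hcomm : ∀ M, π g * π (h.rhoE M) = π (h.rhoE M) * π g) : π g = π (h.rhoE (-1)) := by
  have hz : Fund Q (h.rhoE (-1)) := fund_of_four h (by simp)
  obtain ⟨p, hp⟩ := CharP.exists F
  cases nonempty_fintype F
  have hpp : Fact p.Prime := ⟨CharP.char_is_prime F p⟩
  have hpo : Odd p := by
    apply hpp.out.odd_of_ne_two
    rintro rfl
    exact h2 (by exact_mod_cast CharP.cast_eq_zero F 2)
  have hcm : ∀ M, g * h.rhoE M = h.rhoE M * g ∨ ∀ v, ap (g * h.rhoE M * (h.rhoE M * g)⁻¹) v = -v := by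
    intro M
    have h3 : π (g * h.rhoE M * (h.rhoE M * g)⁻¹) = 1 := by
      rw [map_mul, map_inv, map_mul, map_mul, hcomm M, mul_inv_cancel]
    rcases (hker _).1 h3 with h4 | h4
    · left
      exact mul_inv_eq_one.1 h4
    · right
      exact h4
  have c1 : g * S Q e₁ f₂ = S Q e₁ f₂ * g := by
    rw [← rhoE_u h]
    apply comm_of_pow hpo _ (hcm _)
    rw [rhoE_u]
    exact S_pow_char h.h1.left h.ef
  have c2 : g * S Q e₂ f₁ = S Q e₂ f₁ * g := by
    rw [← rhoE_l h]
    apply comm_of_pow hpo _ (hcm _)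
    rw [rhoE_l]
    exact S_pow_char h.h2.left (by rw [polar_comm]; exact h.fe)
  obtain ⟨a, ha, a1, a2, a3, a4⟩ := scalar_of_comm h2 h hg.sq c1 c2
  obtain ⟨m, hm⟩ := exists_neg_eight (m := 2) h2 hG hT
  have hπm : π m = 1 := (hker m).2 (Or.inr hm)
  -- the 4-space
  have hVz : Vm (h.rhoE (-1)) = Submodule.span F (Set.range ![e₁, f₁, e₂, f₂]) := by
    have key : ∀ v, ap (h.rhoE (-1)) v = h.phi (-1) v := fun v => rfl
    obtain ⟨p1, p2, p3, p4, p5, p6, p7, p8, p9, p10, p11, p12, p13, p14, p15, p16⟩ := h.pols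
    have a00 : (-1 : SpecialLinearGroup (Fin 2) F).1 0 0 = -1 := by simp
    have a01 : (-1 : SpecialLinearGroup (Fin 2) F).1 0 1 = 0 := by simp
    have a10 : (-1 : SpecialLinearGroup (Fin 2) F).1 1 0 = 0 := by simp
    have a11 : (-1 : SpecialLinearGroup (Fin 2) F).1 1 1 = -1 := by simp
    refine Vm_of_fund h2 h ?_ ?_ ?_ ?_ ?_
    · rw [key]; unfold Four.phi
      rw [a00, a01, a10, a11, p1, p6, p10, p12]
      module
    · rw [key]; unfold Four.phi
      rw [a00, a01, a10, a11, p2, p5, p14, p16]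
      module
    · rw [key]; unfold Four.phi
      rw [a00, a01, a10, a11, p9, p13, p3, p8]
      module
    · rw [key]; unfold Four.phi
      rw [a00, a01, a10, a11, p11, p15, p4, p7]
      module
    · intro v k1 k2 k3 k4
      rw [key]; unfold Four.phi
      rw [k1, k2, k3, k4]
      module
  -- an involution of rank four which is `-1` there
  have fin : ∀ y : ↥(E Q), y * y = 1 → finrank F (Vm y) = 4 → ap y e₁ = -e₁ → ap y f₁ = -f₁ → ap y e₂ = -e₂ →
      ap y f₂ = -f₂ → y = h.rhoE (-1) := by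
    intro y hy hd y1 y2 y3 y4
    have hle : Vm (h.rhoE (-1)) ≤ Vm y := by
      rw [hVz, Submodule.span_le]
      rintro _ ⟨i, rfl⟩
      fin_cases i
      · exact mem_Vm.2 y1
      · exact mem_Vm.2 y2
      · exact mem_Vm.2 y3
      · exact mem_Vm.2 y4
    have heq : Vm (h.rhoE (-1)) = Vm y :=
      Submodule.eq_of_le_of_finrank_eq hle (by rw [finrank_Vm_of_fund h2 hz, hd])
    apply Cfsg.Agent.H237.IF.eq_of_neg h2 hG.nondeg hy hz.sq
    intro v
    rw [← mem_Vm, ← mem_Vm, heq]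
  rcases ha with rfl | rfl
  · -- `g = -z`
    have hmc : ∀ k, m * k = k * m := fun k => ext_ap fun v => by rw [ap_mul, ap_mul, hm, hm, ap_neg]
    have hm2 : m * m = 1 := ext_ap fun v => by rw [ap_mul, hm, hm, neg_neg, ap_one]
    have hVm : Vm (m * g) = Vp g := by
      ext v
      rw [mem_Vm, mem_Vp, ap_mul, hm, neg_inj]
    have h3 : m * g = h.rhoE (-1) := by
      apply fin
      · calc (m * g) * (m * g) = m * (g * m) * g := by group
          _ = (m * m) * (g * g) := by rw [← hmc g]; group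
          _ = 1 := by rw [hm2, hg.sq, one_mul]
      · rw [hVm, (hT.fund_types h2 hG hg).2.2.dim]
      · rw [ap_mul, hm, a1, one_smul]
      · rw [ap_mul, hm, a2, one_smul]
      · rw [ap_mul, hm, a3, one_smul]
      · rw [ap_mul, hm, a4, one_smul]
    rw [← h3, map_mul, hπm, one_mul]
  · rw [fin g hg.sq (finrank_Vm_of_fund h2 hg) (by rw [a1, neg_one_smul]) (by rw [a2, neg_one_smul])
      (by rw [a3, neg_one_smul]) (by rw [a4, neg_one_smul])]

open Cfsg.Agent.ClassicalGeometry.OrthAut1 (P center_scalar)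

/-- the kernel of `E Q → P Q` -/
theorem ker_P [FiniteDimensional F V] (h2 : (2 : F) ≠ 0) (hG : Good Q) (g : ↥(E Q)) :
    (QuotientGroup.mk' (Subgroup.center ↥(E Q))) g = 1 ↔ g = 1 ∨ ∀ v, ap g v = -v := by
  rw [QuotientGroup.mk'_apply, QuotientGroup.eq_one_iff]
  constructor
  · intro hg
    obtain ⟨c, hc⟩ := center_scalar hG hg
    obtain ⟨x, hx⟩ : ∃ x : V, Q x ≠ 0 := by
      by_contra hcon
      push Not at hcon
      obtain ⟨g', hg', hg1⟩ := Cfsg.Agent.LieClassical.OrthSimple.good_E_ne_bot hG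
      apply hg1
      apply LinearEquiv.ext
      intro v
      have h3 : ∀ a b : V, polar Q a b = 0 := by
        intro a b
        simp [polar, hcon]
      have h4 : v = 0 := hG.nondeg v fun y => h3 v y
      rw [h4, map_zero, map_zero]
    have h3 : Q (c • x) = Q x := by rw [← hc, ← mem_O.1 (E_le_O g.2) x]
    rw [QuadraticMap.map_smul, smul_eq_mul] at h3
    have h4 : c * c = 1 := mul_right_cancel₀ hx (h3.trans (one_mul _).symm)
    rcases mul_self_eq_one_iff.1 h4 with rfl | rfl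
    · left
      apply ext_ap
      intro v
      rw [ap_one]
      exact (hc v).trans (one_smul _ _)
    · right
      intro v
      exact (hc v).trans (neg_one_smul _ _)
  · rintro (rfl | h)
    · exact Subgroup.one_mem _
    · rw [Subgroup.mem_center_iff]
      intro k
      apply ext_ap
      intro v
      rw [ap_mul, ap_mul, h, h, ap_neg]

/-- **`hc`** in `P Q` -/
theorem hc_eight_P [Finite F] [FiniteDimensional F V] (h2 : (2 : F) ≠ 0) (hG : Good Q) (hT : Ty Q 8 1)
    {e₁ f₁ e₂ f₂ : V} (h : Four Q e₁ f₁ e₂ f₂) {g : ↥(E Q)} (hg : Fund Q g)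
    (hcomm : ∀ M, (g : P Q) * (h.rhoE M : P Q) = (h.rhoE M : P Q) * (g : P Q)) :
    (g : P Q) = (h.rhoE (-1) : P Q) :=
  hc_eight h2 hG (QuotientGroup.mk' (Subgroup.center ↥(E Q))) (ker_P h2 hG) hT h hg hcomm

/-- the class of `z` in `P Q` -/
theorem eight_plus_P [Finite F] [FiniteDimensional F V] (h2 : (2 : F) ≠ 0) (hG : Good Q) (hT : Ty Q 8 1)
    {z : ↥(E Q)} (hz : Fund Q z) :
    4 * (Subgroup.centralizer ({(z : P Q)} : Set (P Q))).index ≤
      Nat.card F ^ 8 * (Nat.card F ^ 2 + 1) ^ 2 * (Nat.card F ^ 4 + Nat.card F ^ 2 + 1) :=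
  eight_plus_T h2 hG (QuotientGroup.mk' (Subgroup.center ↥(E Q))) (QuotientGroup.mk'_surjective _) (ker_P h2 hG) hT hz

end Cfsg.Agent.H989.Fx
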