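import Cfsg.Agent.H989.Fx.Cls

/-!
# S5719: the class of the fundamental involutions in `PΩ_8^+` (helper989)

* `two_mul_index_le` : classes in a quotient by a central involution `m` with `z ∼ m z`;
* `exists_neg_eight` : `-1 ∈ E Q`;
* `eight_plus_T` : `4 |z^T| ≤ q^8 (q^2 + 1)^2 (q^4 + q^2 + 1)`.
-/

set_option autoImplicit false
set_option linter.unusedSectionVars false

namespace Cfsg.Agent.H989.Fx

open QuadraticMap Module Cfsg.Agent.LieClassical Cfsg.Agent.LieClassical.OrthCore Cfsg.Agent.LieClassical.OrthTrans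
open Cfsg.Agent.H160.QSpin Cfsg.Agent.H160.QDisc
open Cfsg.Agent.H325.IF (Vm Vp mem_Vm mem_Vp isConj_of_finrank)
open Cfsg.Agent.H989.Gs.Gen

universe u v

/-- **classes in a quotient** -/
theorem two_mul_index_le {G T : Type*} [Group G] [Group T] [Finite G] (π : G →* T) (hπ : Function.Surjective π)
    {z m : G} (hm1 : m ≠ 1) (hπm : π m = 1) (hm : ∀ g, m * g = g * m) (hzm : IsConj z (m * z)) :
    2 * (Subgroup.centralizer ({π z} : Set T)).index ≤ (Subgroup.centralizer ({z} : Set G)).index := by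
  rw [index_centralizer_eq, index_centralizer_eq]
  have key : ∀ x : {s : T // IsConj (π z) s}, ∃ y : G, IsConj z y ∧ π y = x := by
    rintro ⟨x, hx⟩
    obtain ⟨c, rfl⟩ := isConj_iff.1 hx
    obtain ⟨g, rfl⟩ := hπ c
    exact ⟨g * z * g⁻¹, isConj_iff.2 ⟨g, rfl⟩, by rw [map_mul, map_mul, map_inv]⟩
  choose σ hσ hσ' using key
  have hmσ : ∀ x, IsConj z (m * σ x) := by
    intro x
    obtain ⟨g, hg⟩ := isConj_iff.1 (hσ x)
    have h1 : m * σ x = g * (m * z) * g⁻¹ := by
      rw [← hg, ← mul_assoc, ← mul_assoc, hm g]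
      group
    rw [h1]
    exact hzm.trans (isConj_iff.2 ⟨g, rfl⟩)
  have h2 : Nat.card (Bool × {s : T // IsConj (π z) s}) = 2 * Nat.card {s : T // IsConj (π z) s} := by
    rw [Nat.card_prod, Nat.card_eq_fintype_card, Fintype.card_bool]
  rw [← h2]
  refine Nat.card_le_card_of_injective (fun x : Bool × {s : T // IsConj (π z) s} =>
    (if x.1 then ⟨m * σ x.2, hmσ x.2⟩ else ⟨σ x.2, hσ x.2⟩ : {s : G // IsConj z s})) ?_
  have hval : ∀ x : Bool × {s : T // IsConj (π z) s},
      π ((if x.1 then ⟨m * σ x.2, hmσ x.2⟩ else ⟨σ x.2, hσ x.2⟩ : {s : G // IsConj z s}) : G) = x.2 := by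
    rintro ⟨b, x⟩
    cases b
    · exact hσ' x
    · change π (m * σ x) = x
      rw [map_mul, hπm, one_mul, hσ']
  rintro ⟨b, x⟩ ⟨b', x'⟩ h
  have h3 : x = x' := by
    apply Subtype.ext
    rw [← hval (b, x), ← hval (b', x')]
    exact congrArg (fun s : {s : G // IsConj z s} => π (s : G)) h
  subst h3
  have hne : m * σ x ≠ σ x := fun h4 => hm1 (mul_eq_right.1 h4)
  cases b <;> cases b'
  · rfl
  · exact absurd (congrArg Subtype.val h).symm hne
  · exact absurd (congrArg Subtype.val h) hne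
  · rfl

variable {F : Type u} {V : Type v} [Field F] [AddCommGroup V] [Module F V] {Q : QuadraticForm F V}

/-- `-1 ∈ E Q` -/
theorem exists_neg_eight [Finite F] [FiniteDimensional F V] (h2 : (2 : F) ≠ 0) (hG : Good Q) {m : ℕ}
    (hT : Ty Q (2 * (2 * m)) 1) : ∃ g : ↥(E Q), ∀ v, ap g v = -v := by
  classical
  cases nonempty_fintype F
  have hT' : Ty (rU Q (⊤ : Submodule F V)) (2 * (2 * m)) 1 := hT.congr Submodule.topEquiv fun w => rfl
  have hdc : dc (rU Q (⊤ : Submodule F V)) = 1 := by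
    rw [hT'.disc_eq h2, mul_one, pow_mul]
    have hχ : quadraticChar F (-1) ^ 2 = 1 := quadraticChar_sq_one (neg_ne_zero.2 one_ne_zero)
    rw [hχ, one_pow]
  obtain ⟨g, -, hg⟩ := Cfsg.Agent.H325.IF.exists_inv h2 hG (U := ⊤) hT'.nd (by rw [hT'.dim]; exact even_two_mul _) hdc
  refine ⟨g, fun v => ?_⟩
  rw [← mem_Vm, hg]
  exact Submodule.mem_top

/-- **the class of `z` in `PΩ_8^+`** -/
theorem eight_plus_T [Finite F] [FiniteDimensional F V] (h2 : (2 : F) ≠ 0) (hG : Good Q) {T : Type*} [Group T]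
    (π : ↥(E Q) →* T) (hπ : Function.Surjective π) (hker : ∀ g, π g = 1 ↔ g = 1 ∨ ∀ v, ap g v = -v)
    (hT : Ty Q 8 1) {z : ↥(E Q)} (hz : Fund Q z) :
    4 * (Subgroup.centralizer ({π z} : Set T)).index ≤
      Nat.card F ^ 8 * (Nat.card F ^ 2 + 1) ^ 2 * (Nat.card F ^ 4 + Nat.card F ^ 2 + 1) := by
  have hfin : Finite V := Module.finite_of_finite F
  have hfinE : Finite (V ≃ₗ[F] V) :=
    Finite.of_injective (fun e : V ≃ₗ[F] V => (e : V → V)) DFunLike.coe_injective
  obtain ⟨m, hm⟩ := exists_neg_eight (m := 2) h2 hG hT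
  have hmc : ∀ g, m * g = g * m := fun g => ext_ap fun v => by rw [ap_mul, ap_mul, hm, hm, ap_neg]
  have hm2 : m * m = 1 := ext_ap fun v => by rw [ap_mul, hm, hm, neg_neg, ap_one]
  have hm1 : m ≠ 1 := by
    rintro rfl
    have hnt : Nontrivial V := Module.nontrivial_of_finrank_pos (R := F) (by rw [hT.dim]; norm_num)
    obtain ⟨v, hv⟩ := exists_ne (0 : V)
    have h3 := hm v
    rw [ap_one] at h3
    have h4 : (2 : F) • v = 0 := by rw [two_smul]; nth_rewrite 2 [h3]; exact add_neg_cancel v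
    exact hv ((smul_eq_zero.1 h4).resolve_left h2)
  have hmz : (m * z) * (m * z) = 1 := by
    calc (m * z) * (m * z) = m * (z * m) * z := by group
      _ = (m * m) * (z * z) := by rw [← hmc z]; group
      _ = 1 := by rw [hm2, hz.sq, one_mul]
  have hVm : Vm (m * z) = Vp z := by
    ext v
    rw [mem_Vm, mem_Vp, ap_mul, hm, neg_inj]
  have hd : finrank F (Vm z) = finrank F (Vm (m * z)) := by
    rw [hVm, finrank_Vm_fund h2 hz, (hT.fund_types h2 hG hz).2.2.dim]
  have h1 := two_mul_index_le π hπ hm1 ((hker m).2 (Or.inr hm)) hmc (isConj_of_finrank h2 hG hz.sq hmz hd)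
  have h3 := fund_eight_plus h2 hG hT hz
  have h4 : 2 * (Subgroup.centralizer ({z} : Set ↥(E Q))).index =
      Nat.card F ^ 8 * (Nat.card F ^ 2 + 1) ^ 2 * (Nat.card F ^ 4 + Nat.card F ^ 2 + 1) := by exact_mod_cast h3
  rw [← h4]
  omega

end Cfsg.Agent.H989.Fx
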